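/-
helper54: S3244, part III and assembly.  If every 2-local subgroup lies in the centralizer of a
conjugate of the central involution `z` of the Sylow 2-subgroup `S`, then `z` is isolated in `S`
(extremal-conjugate argument), so by the Z*-theorem a simple group cannot satisfy this.
Names prefixed `c2t_`.
-/
import Mathlib
import Cfsg.Agent.Helper54.C2Max
import Cfsg.Agent.Helper54.LBChain
import Cfsg.Agent.Helper54.LBGenZ

set_option autoImplicit false
set_option linter.style.haveILetI false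
set_option linter.unusedSectionVars false
set_option linter.unusedVariables false

namespace Cfsg.Agent.Helper54

open Cfsg

section C2Fus

variable {G : Type*} [Group G]

/-- Part III: the extremal-conjugate argument. -/
theorem c2t_fusion_contra [Finite G] (S : Sylow 2 G) {z : G} (hzS : z ∈ (S : Subgroup G))
    (hz2 : z * z = 1) (hz1 : z ≠ 1) (hzc : ∀ s ∈ (S : Subgroup G), z * s = s * z)
    (hP : ∀ R : Subgroup G, IsPGroup 2 R → R ≠ ⊥ →
      ∃ g : G, Subgroup.normalizer (R : Set G) ≤ Subgroup.centralizer ({g * z * g⁻¹} : Set G))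
    (hniso : ∃ g : G, g * z * g⁻¹ ∈ (S : Subgroup G) ∧ g * z * g⁻¹ ≠ z) : False := by
  haveI : Fact (Nat.Prime 2) := ⟨Nat.prime_two⟩
  have hS2 : IsPGroup 2 (S : Subgroup G) := S.2
  have hSsyl : LbSyl 2 (S : Subgroup G) ⊤ := c2t_sylow_lbsyl S
  have hS1 : (S : Subgroup G) ≠ ⊥ := by
    intro h
    rw [h, Subgroup.mem_bot] at hzS
    exact hz1 hzS
  have hconj2 : ∀ g : G, (g * z * g⁻¹) * (g * z * g⁻¹) = 1 := by
    intro g
    calc g * z * g⁻¹ * (g * z * g⁻¹) = g * (z * z) * g⁻¹ := by group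
      _ = 1 := by rw [hz2]; group
  have hconj1 : ∀ g : G, g * z * g⁻¹ ≠ 1 := by
    intro g h
    apply hz1
    calc z = g⁻¹ * (g * z * g⁻¹) * g := by group
      _ = 1 := by rw [h]; group
  have hconjP : ∀ g : G, IsPGroup 2 (Subgroup.zpowers (g * z * g⁻¹)) := fun g =>
    lbloc_isPGroup_zpowers (k := 1) (by rw [pow_one, pow_two]; exact hconj2 g)
  have hzcen : z ∈ Subgroup.centralizer ((S : Subgroup G) : Set G) := by
    rw [Subgroup.mem_centralizer_iff]
    intro s hs
    exact (hzc s hs).symm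
  -- (i) the normalizer of `S` centralizes `z`
  have hNS : Subgroup.normalizer ((S : Subgroup G) : Set G) ≤
      Subgroup.centralizer ({z} : Set G) := by
    obtain ⟨g, hg⟩ := hP S hS2 hS1
    have hz1c : ∀ s ∈ (S : Subgroup G), (g * z * g⁻¹) * s = s * (g * z * g⁻¹) := fun s hs =>
      lbfus_comm_of_mem_cent_singleton (hg (Subgroup.le_normalizer hs))
    have hy : g⁻¹⁻¹ * z * g⁻¹ ∈ Subgroup.centralizer ((S : Subgroup G) : Set G) := by
      rw [inv_inv, Subgroup.mem_centralizer_iff]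
      intro s hs
      exact (hz1c s hs).symm
    obtain ⟨n, hn, hne⟩ := Sylow.conj_eq_normalizer_conj_of_mem_centralizer S z g⁻¹ hzcen hy
    rw [inv_inv] at hne
    have hnc := lbfus_comm_of_mem_cent_singleton (hg hn)
    have hzz : g * z * g⁻¹ = z := by
      calc g * z * g⁻¹ = (g * z * g⁻¹ * n) * n⁻¹ := by group
        _ = (n * (g * z * g⁻¹)) * n⁻¹ := by rw [hnc]
        _ = (n * (n⁻¹ * z * n)) * n⁻¹ := by rw [hne]
        _ = z := by group
    rw [hzz] at hg
    exact hg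
  -- conjugates of `z` in `S` other than `z` are not central in `S`
  have hnc : ∀ t : G, t ∈ (S : Subgroup G) → (∃ g : G, t = g * z * g⁻¹) → t ≠ z →
      ∃ s ∈ (S : Subgroup G), t * s ≠ s * t := by
    intro t htS ⟨g, hg⟩ htz
    by_contra hcon
    push_neg at hcon
    have hy : g⁻¹⁻¹ * z * g⁻¹ ∈ Subgroup.centralizer ((S : Subgroup G) : Set G) := by
      rw [inv_inv, ← hg, Subgroup.mem_centralizer_iff]
      intro s hs
      exact (hcon s hs).symm
    obtain ⟨n, hn, hne⟩ := Sylow.conj_eq_normalizer_conj_of_mem_centralizer S z g⁻¹ hzcen hy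
    rw [inv_inv, ← hg] at hne
    have hnz := lbfus_comm_of_mem_cent_singleton (hNS hn)
    apply htz
    rw [hne]
    calc n⁻¹ * z * n = n⁻¹ * (z * n) := by group
      _ = n⁻¹ * (n * z) := by rw [hnz]
      _ = z := by group
  -- the extremal conjugate
  obtain ⟨Tset, hTset⟩ : ∃ Tset : Set G, Tset =
      {t : G | t ∈ (S : Subgroup G) ∧ (∃ g : G, t = g * z * g⁻¹) ∧ t ≠ z} := ⟨_, rfl⟩
  have hTne : Tset.Nonempty := by
    obtain ⟨g, hg1, hg2⟩ := hniso
    exact ⟨g * z * g⁻¹, by rw [hTset]; exact ⟨hg1, ⟨g, rfl⟩, hg2⟩⟩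
  obtain ⟨t, htT, htmax⟩ := Set.exists_max_image Tset
    (fun t => Nat.card ((S : Subgroup G) ⊓ Subgroup.centralizer ({t} : Set G) : Subgroup G))
    (Set.toFinite Tset) hTne
  rw [hTset] at htT
  obtain ⟨htS, ⟨g₀, htg⟩, htz⟩ := htT
  obtain ⟨R, hR⟩ : ∃ R : Subgroup G,
      R = (S : Subgroup G) ⊓ Subgroup.centralizer ({t} : Set G) := ⟨_, rfl⟩
  have htmax' : ∀ t' : G, t' ∈ (S : Subgroup G) → (∃ g : G, t' = g * z * g⁻¹) → t' ≠ z →
      Nat.card ((S : Subgroup G) ⊓ Subgroup.centralizer ({t'} : Set G) : Subgroup G) ≤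
        Nat.card R := by
    intro t' h1 h2 h3
    rw [hR]
    exact htmax t' (by rw [hTset]; exact ⟨h1, h2, h3⟩)
  have hRS : R ≤ (S : Subgroup G) := by rw [hR]; exact inf_le_left
  have hRt : R ≤ Subgroup.centralizer ({t} : Set G) := by rw [hR]; exact inf_le_right
  have hR2 : IsPGroup 2 R := hS2.to_le hRS
  have hzt : z * t = t * z := hzc t htS
  have hzR : z ∈ R := by
    rw [hR]; exact Subgroup.mem_inf.2 ⟨hzS, lbfus_mem_cent_singleton hzt.symm⟩
  have htR : t ∈ R := by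
    rw [hR]; exact Subgroup.mem_inf.2 ⟨htS, lbfus_mem_cent_singleton rfl⟩
  have hR1 : R ≠ ⊥ := by
    intro h
    rw [h, Subgroup.mem_bot] at hzR
    exact hz1 hzR
  have hRneS : R ≠ (S : Subgroup G) := by
    obtain ⟨s, hs, hst⟩ := hnc t htS ⟨g₀, htg⟩ htz
    intro h
    have hsR : s ∈ R := by rw [h]; exact hs
    exact hst (lbfus_comm_of_mem_cent_singleton (hRt hsR))
  -- (ii) `R` is a Sylow 2-subgroup of `C(z) ∩ C(t)`
  obtain ⟨W, hW⟩ : ∃ W : Subgroup G, W =
      Subgroup.centralizer ({z} : Set G) ⊓ Subgroup.centralizer ({t} : Set G) := ⟨_, rfl⟩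
  have hSCz : (S : Subgroup G) ≤ Subgroup.centralizer ({z} : Set G) := fun s hs =>
    lbfus_mem_cent_singleton (hzc s hs)
  have hRW : R ≤ W := by rw [hW]; exact le_inf (hRS.trans hSCz) hRt
  have hSz : LbSyl 2 (S : Subgroup G) (Subgroup.centralizer ({z} : Set G)) :=
    lbsyl_mono hSsyl hSCz le_top
  have hRsyl : LbSyl 2 R W := by
    refine ⟨hRW, hR2, fun Q hQ hQW hRQ => ?_⟩
    have hQz : Q ≤ Subgroup.centralizer ({z} : Set G) := by
      rw [hW] at hQW; exact hQW.trans inf_le_left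
    have hQt : Q ≤ Subgroup.centralizer ({t} : Set G) := by
      rw [hW] at hQW; exact hQW.trans inf_le_right
    obtain ⟨w, hw, hwQ⟩ := lbsyl_conj hSz hQ hQz
    have hwz : z * w = w * z := lbfus_comm_of_mem_cent_singleton hw
    have ht'S : w * t * w⁻¹ ∈ (S : Subgroup G) := hwQ t (hRQ htR)
    have ht'z : w * t * w⁻¹ ≠ z := by
      intro h
      apply htz
      calc t = w⁻¹ * (w * t * w⁻¹) * w := by group
        _ = w⁻¹ * (z * w) := by rw [h]; group
        _ = w⁻¹ * (w * z) := by rw [hwz]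
        _ = z := by group
    have ht'c : ∃ g : G, w * t * w⁻¹ = g * z * g⁻¹ := ⟨w * g₀, by rw [htg]; group⟩
    have h1 := htmax' _ ht'S ht'c ht'z
    have h2 : Nat.card Q ≤ Nat.card ((S : Subgroup G) ⊓
        Subgroup.centralizer ({w * t * w⁻¹} : Set G) : Subgroup G) := by
      have hle : Q.map (MulAut.conj w).toMonoidHom ≤ (S : Subgroup G) ⊓
          Subgroup.centralizer ({w * t * w⁻¹} : Set G) := by
        rintro _ ⟨q, hq, rfl⟩
        refine Subgroup.mem_inf.2 ⟨hwQ q hq, lbfus_mem_cent_singleton ?_⟩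
        have hqt : t * q = q * t := lbfus_comm_of_mem_cent_singleton (hQt hq)
        show w * t * w⁻¹ * (w * q * w⁻¹) = w * q * w⁻¹ * (w * t * w⁻¹)
        calc w * t * w⁻¹ * (w * q * w⁻¹) = w * (t * q) * w⁻¹ := by group
          _ = w * (q * t) * w⁻¹ := by rw [hqt]
          _ = w * q * w⁻¹ * (w * t * w⁻¹) := by group
      have h3 : Nat.card (Q.map (MulAut.conj w).toMonoidHom) = Nat.card Q :=
        Subgroup.card_map_of_injective (MulAut.conj w).injective
      rw [← h3]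
      exact Subgroup.card_le_of_le hle
    exact (Subgroup.eq_of_le_of_card_ge hRQ (h2.trans h1)).symm
  -- (iii) an element of `N_S(R)` outside `R`
  obtain ⟨u, huS, huN, huR⟩ := lbch_normalizer_grow hS2 hRS hRneS
  -- (iv) an element of `N(R) ∩ C(t)` outside `C(z)`
  obtain ⟨St, hStsyl, hRSt⟩ := lbsyl_exists hR2 hRt
  have hcardS : Nat.card (S : Subgroup G) ≤ Nat.card St := by
    have hle : (S : Subgroup G).map (MulAut.conj g₀).toMonoidHom ≤
        Subgroup.centralizer ({t} : Set G) := by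
      rintro _ ⟨s, hs, rfl⟩
      apply lbfus_mem_cent_singleton
      show t * (g₀ * s * g₀⁻¹) = g₀ * s * g₀⁻¹ * t
      rw [htg]
      have := hzc s hs
      calc g₀ * z * g₀⁻¹ * (g₀ * s * g₀⁻¹) = g₀ * (z * s) * g₀⁻¹ := by group
        _ = g₀ * (s * z) * g₀⁻¹ := by rw [this]
        _ = g₀ * s * g₀⁻¹ * (g₀ * z * g₀⁻¹) := by group
    obtain ⟨w, -, hw⟩ := lbsyl_conj hStsyl (hS2.map _) hle
    have h3 : Nat.card (((S : Subgroup G).map (MulAut.conj g₀).toMonoidHom).map
        (MulAut.conj w).toMonoidHom) = Nat.card (S : Subgroup G) := by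
      rw [Subgroup.card_map_of_injective (MulAut.conj w).injective,
        Subgroup.card_map_of_injective (MulAut.conj g₀).injective]
    rw [← h3]
    apply Subgroup.card_le_of_le
    rintro _ ⟨y, hy, rfl⟩
    exact hw y hy
  have hRneSt : R ≠ St := by
    intro h
    apply hRneS
    rw [← h] at hcardS
    exact Subgroup.eq_of_le_of_card_ge hRS hcardS
  obtain ⟨w, hwSt, hwN, hwR⟩ := lbch_normalizer_grow hStsyl.2.1 hRSt hRneSt
  have hwt : w ∈ Subgroup.centralizer ({t} : Set G) := hStsyl.1 hwSt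
  have hwP : IsPGroup 2 (Subgroup.zpowers w) :=
    hStsyl.2.1.to_le (by rw [Subgroup.zpowers_le]; exact hwSt)
  have hwz : w ∉ Subgroup.centralizer ({z} : Set G) := by
    intro h
    apply hwR
    apply lbsyl_mem_of_normalizes hRsyl (by rw [hW]; exact Subgroup.mem_inf.2 ⟨h, hwt⟩) hwP
    intro r hr
    exact (Subgroup.mem_normalizer_iff.1 hwN r).1 hr
  -- (v) the conjugate of `z` attached to `N(R)` contradicts the choice of `t`
  obtain ⟨g, hg⟩ := hP R hR2 hR1
  obtain ⟨zR, hzRdef⟩ : ∃ zR : G, zR = g * z * g⁻¹ := ⟨_, rfl⟩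
  rw [← hzRdef] at hg
  have hRzR : ∀ r ∈ R, zR * r = r * zR := fun r hr =>
    lbfus_comm_of_mem_cent_singleton (hg (Subgroup.le_normalizer hr))
  have hzRW : zR ∈ W := by
    rw [hW]
    exact Subgroup.mem_inf.2 ⟨lbfus_mem_cent_singleton (hRzR z hzR).symm,
      lbfus_mem_cent_singleton (hRzR t htR).symm⟩
  have hzRR : zR ∈ R := by
    apply lbsyl_mem_of_normalizes hRsyl hzRW (by rw [hzRdef]; exact hconjP g)
    intro r hr
    have : zR * r * zR⁻¹ = r := by rw [hRzR r hr]; group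
    rw [this]; exact hr
  have hzRz : zR ≠ z := by
    intro h
    rw [h] at hg
    exact hwz (hg hwN)
  have hmax2 := htmax' zR (hRS hzRR) ⟨g, hzRdef⟩ hzRz
  have hlt : Nat.card R < Nat.card ((S : Subgroup G) ⊓
      Subgroup.centralizer ({zR} : Set G) : Subgroup G) := by
    apply lbfus_card_lt (x := u) ?_ ?_ huR
    · intro r hr
      exact Subgroup.mem_inf.2 ⟨hRS hr, lbfus_mem_cent_singleton (hRzR r hr)⟩
    · exact Subgroup.mem_inf.2 ⟨huS, hg huN⟩
  omega

/-- In a nonabelian simple group no involution is isolated in a Sylow 2-subgroup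
(Glauberman's Z*-theorem). -/
theorem c2t_not_isolated [Finite G] [IsSimpleGroup G] (hG : ¬ IsMulCommutative G)
    (S : Sylow 2 G) {z : G} (hzS : z ∈ (S : Subgroup G)) (hz1 : z ≠ 1) :
    ∃ g : G, g * z * g⁻¹ ∈ (S : Subgroup G) ∧ g * z * g⁻¹ ≠ z := by
  haveI : Fact (Nat.Prime 2) := ⟨Nat.prime_two⟩
  by_contra hno
  push_neg at hno
  have hcomm := lbgz_main (Nat.card G) G le_rfl S z hzS hno
  have hcore : pPrimeCore 2 G = ⊥ := by
    rcases (Cfsg.pPrimeCore_normal 2 G).eq_bot_or_eq_top with h | h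
    · exact h
    · exfalso
      apply hz1
      exact lbfus_eq_one_of_coprime (Cfsg.Agent.Helper22.card_pPrimeCore_coprime 2 G) S.2
        (by rw [h]; exact Subgroup.mem_top z) hzS
  have hzc : ∀ g : G, z * g = g * z := by
    intro g
    have h := hcomm g
    rw [hcore, Subgroup.mem_bot] at h
    calc z * g = (z * g * z⁻¹ * g⁻¹) * (g * z) := by group
      _ = g * z := by rw [h, one_mul]
  have hzcen : z ∈ Subgroup.center G := by
    rw [Subgroup.mem_center_iff]
    intro g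
    exact (hzc g).symm
  have hcen : Subgroup.center G = ⊤ := by
    rcases (inferInstance : (Subgroup.center G).Normal).eq_bot_or_eq_top with h | h
    · exfalso
      rw [h, Subgroup.mem_bot] at hzcen
      exact hz1 hzcen
    · exact h
  apply hG
  refine ⟨⟨fun a b => ?_⟩⟩
  have ha : a ∈ Subgroup.center G := by rw [hcen]; exact Subgroup.mem_top a
  exact (Subgroup.mem_center_iff.1 ha b).symm

/-- Set-up: `Ω_1` of an SCN-subgroup of rank at least 3, and a central involution of `S`. -/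
theorem c2t_setup [Finite G] (S : Sylow 2 G) (A : Subgroup G)
    (hA : IsSCN (S : Subgroup G) A) (hA3 : ¬ PRankLE 2 2 ↥A) :
    ∃ E : Subgroup G, IsElementaryAbelian 2 E ∧ 2 ^ 3 ≤ Nat.card E ∧
      (∀ s ∈ (S : Subgroup G), ∀ b ∈ E, s * b * s⁻¹ ∈ E) ∧
      ∃ z : G, z ∈ E ∧ z ∈ (S : Subgroup G) ∧ z ≠ 1 ∧ z * z = 1 ∧
        ∀ s ∈ (S : Subgroup G), z * s = s * z := by
  haveI : Fact (Nat.Prime 2) := ⟨Nat.prime_two⟩
  have hS2 : IsPGroup 2 ↥(S : Subgroup G) := S.2
  obtain ⟨hAS, hSA, hAcen⟩ := hA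
  have hAcomm : ∀ x ∈ A, ∀ y ∈ A, x * y = y * x := by
    intro x hx y hy
    have h1 : y ∈ (S : Subgroup G) ⊓ Subgroup.centralizer (A : Set G) := by rw [hAcen]; exact hy
    exact (Subgroup.mem_centralizer_iff.mp (Subgroup.mem_inf.mp h1).2) x hx
  obtain ⟨E, hE⟩ : ∃ E : Subgroup G, ∀ v : G, v ∈ E ↔ (v ∈ A ∧ v * v = 1) := by
    refine ⟨{ carrier := {v | v ∈ A ∧ v * v = 1}
              mul_mem' := ?_
              one_mem' := ?_
              inv_mem' := ?_ }, fun v => Iff.rfl⟩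
    · intro v w hv hw
      refine ⟨A.mul_mem hv.1 hw.1, ?_⟩
      have hc : w * v = v * w := hAcomm _ hw.1 _ hv.1
      calc v * w * (v * w) = v * (w * v) * w := by group
        _ = v * (v * w) * w := by rw [hc]
        _ = (v * v) * (w * w) := by group
        _ = 1 := by rw [hv.2, hw.2, one_mul]
    · exact ⟨A.one_mem, one_mul 1⟩
    · intro v hv
      refine ⟨A.inv_mem hv.1, ?_⟩
      calc v⁻¹ * v⁻¹ = (v * v)⁻¹ := by group
        _ = 1 := by rw [hv.2, inv_one]
  have hEel : IsElementaryAbelian 2 E := by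
    refine ⟨⟨⟨fun x y => Subtype.ext (hAcomm _ ((hE _).1 x.2).1 _ ((hE _).1 y.2).1)⟩⟩,
      fun a ha => ?_⟩
    rw [pow_two]; exact ((hE a).1 ha).2
  have hE2 : IsPGroup 2 E := by
    intro x
    refine ⟨1, Subtype.ext ?_⟩
    rw [pow_one, Subgroup.coe_pow]
    exact hEel.2 x x.2
  have hEcard : 2 ^ 3 ≤ Nat.card E := by
    have hex : ∃ B : Subgroup ↥A, (∀ b ∈ B, b ^ 2 = 1) ∧ 4 < Nat.card B := by
      by_contra hcon
      apply hA3
      intro B _ hB2
      by_contra hlt
      exact hcon ⟨B, hB2, by norm_num at hlt; omega⟩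
    obtain ⟨B, hB2, hBc⟩ := hex
    have hinj : ∃ f : ↥B → ↥E, Function.Injective f := by
      refine ⟨fun b => ⟨((b : ↥A) : G), (hE _).2 ⟨(b : ↥A).2, ?_⟩⟩, ?_⟩
      · have h1 := hB2 (b : ↥A) b.2
        have h2 : (((b : ↥A) : G)) ^ 2 = 1 := by
          have := congrArg Subtype.val h1
          simpa using this
        rw [← pow_two]; exact h2
      · intro b c hbc
        have h1 : ((b : ↥A) : G) = ((c : ↥A) : G) := congrArg (fun v : ↥E => (v : G)) hbc
        exact Subtype.ext (Subtype.ext h1)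
    obtain ⟨f, hf⟩ := hinj
    have h3 := Nat.card_le_card_of_injective f hf
    obtain ⟨n, hn⟩ := IsPGroup.iff_card.1 hE2
    rw [hn] at h3 ⊢
    apply Nat.pow_le_pow_right (by norm_num)
    by_contra hlt
    have hn2 : n ≤ 2 := by omega
    have : 2 ^ n ≤ 2 ^ 2 := Nat.pow_le_pow_right (by norm_num) hn2
    omega
  have hES : ∀ s ∈ (S : Subgroup G), ∀ b ∈ E, s * b * s⁻¹ ∈ E := by
    intro s hs b hb
    rw [hE] at hb ⊢
    refine ⟨(Subgroup.mem_normalizer_iff.mp (hSA hs) _).mp hb.1, ?_⟩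
    calc s * b * s⁻¹ * (s * b * s⁻¹) = s * (b * b) * s⁻¹ := by group
      _ = 1 := by rw [hb.2]; group
  have hESle : E ≤ (S : Subgroup G) := fun v hv => hAS ((hE v).1 hv).1
  haveI hSnt : Nontrivial ↥(S : Subgroup G) := by
    rw [← Finite.one_lt_card_iff_nontrivial]
    have := Subgroup.card_le_of_le hESle
    have h8 : (2 : ℕ) ^ 3 = 8 := by norm_num
    omega
  haveI : Nontrivial ↥(Subgroup.center ↥(S : Subgroup G)) := hS2.center_nontrivial
  obtain ⟨ζ, hζ⟩ : ∃ ζ : ↥(Subgroup.center ↥(S : Subgroup G)), orderOf ζ = 2 := by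
    have h2 : IsPGroup 2 ↥(Subgroup.center ↥(S : Subgroup G)) := hS2.to_subgroup _
    obtain ⟨n, hn⟩ := IsPGroup.iff_card.1 h2
    have hn0 : n ≠ 0 := by
      rintro rfl
      rw [pow_zero] at hn
      have := Finite.one_lt_card (α := ↥(Subgroup.center ↥(S : Subgroup G)))
      omega
    have hdvd : 2 ∣ Nat.card ↥(Subgroup.center ↥(S : Subgroup G)) := by
      rw [hn]; exact dvd_pow_self 2 hn0
    exact exists_prime_orderOf_dvd_card' 2 hdvd
  obtain ⟨z, hzS, hz1, hz2, hzc⟩ : ∃ z : G, z ∈ (S : Subgroup G) ∧ z ≠ 1 ∧ z * z = 1 ∧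
      ∀ s ∈ (S : Subgroup G), z * s = s * z := by
    refine ⟨((ζ : ↥(S : Subgroup G)) : G), (ζ : ↥(S : Subgroup G)).2, ?_, ?_, ?_⟩
    · intro h
      have h1 : ζ = 1 := by
        apply Subtype.ext; apply Subtype.ext; exact h
      rw [h1, orderOf_one] at hζ
      omega
    · have h0 : ζ ^ 2 = 1 := by
        have := pow_orderOf_eq_one ζ
        rw [hζ] at this
        exact this
      have h1 : ζ * ζ = 1 := by rw [← pow_two]; exact h0
      exact congrArg
        (fun t : ↥(Subgroup.center ↥(S : Subgroup G)) => ((t : ↥(S : Subgroup G)) : G)) h1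
    · intro s hs
      have h1 := Subgroup.mem_center_iff.1 ζ.2 ⟨s, hs⟩
      have h2 := congrArg (fun t : ↥(S : Subgroup G) => (t : G)) h1
      exact h2.symm
  refine ⟨E, hEel, hEcard, hES, z, ?_, hzS, hz1, hz2, hzc⟩
  rw [hE]
  refine ⟨?_, hz2⟩
  rw [← hAcen]
  refine Subgroup.mem_inf.2 ⟨hzS, ?_⟩
  rw [Subgroup.mem_centralizer_iff]
  intro a ha
  exact (hzc a (hAS ha)).symm

/-- S3244: a nonabelian simple group of characteristic 2 type in the early sense has a maximal
2-local subgroup `M` with `Z(O_2(M))` noncyclic. -/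
theorem c2t_main [Finite G] [IsSimpleGroup G]
    (hG : ¬ IsMulCommutative G) (S : Sylow 2 G) (A : Subgroup G)
    (hA : IsSCN (S : Subgroup G) A) (hA3 : ¬ PRankLE 2 2 ↥A)
    (hinv : ∀ X : Subgroup G, Odd (Nat.card ↥X) →
      (S : Subgroup G) ≤ Subgroup.normalizer (X : Set G) → X = ⊥)
    (hcon : ∀ T : Subgroup G, IsPGroup 2 ↥T → T ≠ ⊥ →
      IsPConstrained 2 ↥(Subgroup.normalizer (T : Set G))) :
    ∃ M : Subgroup G, IsMaximalTwoLocal M ∧
      ¬ IsCyclic ↥(Subgroup.center ↥(pCore 2 ↥M)) := by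
  by_contra hno
  push_neg at hno
  obtain ⟨E, hEel, hEcard, hES, z, hzE, hzS, hz1, hz2, hzc⟩ := c2t_setup S A hA hA3
  have hconC : ∀ u : G, u ≠ 1 → u ^ 2 = 1 →
      IsPConstrained 2 ↥(Subgroup.centralizer ({u} : Set G)) := by
    intro u hu1 hu2
    have hu2' : u * u = 1 := by rw [← pow_two]; exact hu2
    have h := hcon (Subgroup.zpowers u)
      (lbloc_isPGroup_zpowers (k := 1) (by rw [pow_one]; exact hu2)) (by
        intro hbot
        have := Subgroup.mem_zpowers u
        rw [hbot, Subgroup.mem_bot] at this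
        exact hu1 this)
    rw [c2t_normalizer_zpowers_invol hu2' hu1] at h
    exact h
  have hI : ∀ u : G, u ^ 2 = 1 → pPrimeCore 2 ↥(Subgroup.centralizer ({u} : Set G)) = ⊥ :=
    fun u hu2 => c2t_core_centralizer_eq_bot S hEel hEcard hES hzE hz1 hzc hinv hconC u hu2
  have hP : ∀ R : Subgroup G, IsPGroup 2 R → R ≠ ⊥ →
      ∃ g : G, Subgroup.normalizer (R : Set G) ≤
        Subgroup.centralizer ({g * z * g⁻¹} : Set G) := by
    intro R hR2 hR1
    obtain ⟨M, hM, hNM⟩ := c2t_exists_maximal (N := Subgroup.normalizer (R : Set G))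
      ⟨R, hR2, hR1, rfl⟩
    obtain ⟨g, hg⟩ := c2t_maximal_le_centralizer S hz2 hz1 hzc hcon hI hM (hno M hM)
    exact ⟨g, hNM.trans hg⟩
  exact c2t_fusion_contra S hzS hz2 hz1 hzc hP (c2t_not_isolated hG S hzS hz1)

end C2Fus

end Cfsg.Agent.Helper54
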