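/-
helper54: S3211 (Fong–Wong), abstract part.  Configuration `FwCfg A B j`: two elementwise
commuting subgroups `A`, `B` meeting in `{1, j}`, each with `j` as its only involution, such that
every involution of `C(j)` other than `j` is a product `a * b` of square roots of `j`, and square
roots of `j` are inverted inside `A` (resp. `B`) by elements squaring to `j`.
Result: `j` commutes with none of its other conjugates (`fw_isolated`).
Idea: for an involution `t ≠ j` of `C(j)`, the set `S` of involutions of `C(j) ∩ C(t)` other than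
`j, t, jt` is symmetric in `j` and `t`; `S * S = C_A(x) C_B(y)` (`t = x y`), and `j` is the only
involution which is a `2^i`-th power in `S * S` for the largest possible `i`.
Names prefixed `fw_` / `Fw`.
-/
import Mathlib

set_option autoImplicit false
set_option linter.style.haveILetI false
set_option linter.unusedSectionVars false
set_option linter.unusedVariables false

namespace Cfsg.Agent.Helper54

section FWKey

variable {G : Type*} [Group G]

structure FwCfg (A B : Subgroup G) (j : G) : Prop where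
  hc : ∀ x ∈ A, ∀ y ∈ B, x * y = y * x
  hm : ∀ x, x ∈ A → x ∈ B → x = 1 ∨ x = j
  hjA : j ∈ A
  hjB : j ∈ B
  hj1 : j ≠ 1
  hj2 : j * j = 1
  uA : ∀ b ∈ A, b * b = 1 → b = 1 ∨ b = j
  uB : ∀ b ∈ B, b * b = 1 → b = 1 ∨ b = j
  invA : ∀ x ∈ A, x * x = j → ∃ a ∈ A, a * x * a⁻¹ = x⁻¹
  invB : ∀ y ∈ B, y * y = j → ∃ b ∈ B, b * y * b⁻¹ = y⁻¹
  sqA : ∀ x ∈ A, x * x = j → ∀ a ∈ A, a * x * a⁻¹ = x⁻¹ → a * a = j
  sqB : ∀ y ∈ B, y * y = j → ∀ b ∈ B, b * y * b⁻¹ = y⁻¹ → b * b = j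
  hinvol : ∀ s, s * j = j * s → s * s = 1 → s ≠ 1 → s ≠ j →
    ∃ a ∈ A, ∃ b ∈ B, s = a * b ∧ a * a = j ∧ b * b = j

/-- the involutions commuting with `j` and `t`, other than `j`, `t`, `j * t` -/
def fwS (j t : G) : Set G :=
  {s | s * j = j * s ∧ s * t = t * s ∧ s * s = 1 ∧ s ≠ 1 ∧ s ≠ j ∧ s ≠ t ∧ s ≠ j * t}

/-- `z` is the only involution among the `2^i`-th powers of the elements of `S * S`, for
some `i`. -/
def FwTop (j t z : G) : Prop :=
  ∃ i : ℕ, (∃ s ∈ fwS j t, ∃ s' ∈ fwS j t, (s * s') ^ (2 ^ i) = z) ∧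
    ∀ s ∈ fwS j t, ∀ s' ∈ fwS j t, ∀ m : ℕ,
      (s * s') ^ (m * 2 ^ i) * (s * s') ^ (m * 2 ^ i) = 1 → (s * s') ^ (m * 2 ^ i) ≠ 1 →
        (s * s') ^ (m * 2 ^ i) = z

theorem fw_top_unique {j t z z' : G} (h : FwTop j t z) (h' : FwTop j t z') (hz : z * z = 1)
    (hz1 : z ≠ 1) (hz' : z' * z' = 1) (hz1' : z' ≠ 1) : z = z' := by
  obtain ⟨i, ⟨s₁, hs₁, s₁', hs₁', hc⟩, hu⟩ := h
  obtain ⟨i', ⟨s₂, hs₂, s₂', hs₂', hc'⟩, hu'⟩ := h'
  rcases le_total i i' with hle | hle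
  · have e : (s₂ * s₂') ^ (2 ^ (i' - i) * 2 ^ i) = z' := by
      rw [← pow_add, Nat.sub_add_cancel hle]; exact hc'
    have h3 := hu s₂ hs₂ s₂' hs₂' (2 ^ (i' - i)) (by rw [e]; exact hz') (by rw [e]; exact hz1')
    rw [e] at h3
    exact h3.symm
  · have e : (s₁ * s₁') ^ (2 ^ (i - i') * 2 ^ i') = z := by
      rw [← pow_add, Nat.sub_add_cancel hle]; exact hc
    have h3 := hu' s₁ hs₁ s₁' hs₁' (2 ^ (i - i')) (by rw [e]; exact hz) (by rw [e]; exact hz1)
    rw [e] at h3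
    exact h3

theorem fw_S_symm {j t : G} (hjt : j * t = t * j) : fwS j t = fwS t j := by
  ext s
  simp only [fwS, Set.mem_setOf_eq]
  constructor
  · rintro ⟨h1, h2, h3, h4, h5, h6, h7⟩
    exact ⟨h2, h1, h3, h4, h6, h5, by rw [← hjt]; exact h7⟩
  · rintro ⟨h1, h2, h3, h4, h5, h6, h7⟩
    exact ⟨h2, h1, h3, h4, h6, h5, by rw [hjt]; exact h7⟩

theorem fw_top_symm {j t z : G} (hjt : j * t = t * j) (h : FwTop j t z) : FwTop t j z := by
  unfold FwTop at h ⊢
  rw [← fw_S_symm hjt]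
  exact h

theorem fw_S_conj (g : G) {j t s : G} (hs : s ∈ fwS j t) :
    g * s * g⁻¹ ∈ fwS (g * j * g⁻¹) (g * t * g⁻¹) := by
  obtain ⟨h1, h2, h3, h4, h5, h6, h7⟩ := hs
  refine ⟨?_, ?_, ?_, ?_, ?_, ?_, ?_⟩
  · calc g * s * g⁻¹ * (g * j * g⁻¹) = g * (s * j) * g⁻¹ := by group
      _ = g * (j * s) * g⁻¹ := by rw [h1]
      _ = g * j * g⁻¹ * (g * s * g⁻¹) := by group
  · calc g * s * g⁻¹ * (g * t * g⁻¹) = g * (s * t) * g⁻¹ := by group
      _ = g * (t * s) * g⁻¹ := by rw [h2]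
      _ = g * t * g⁻¹ * (g * s * g⁻¹) := by group
  · calc g * s * g⁻¹ * (g * s * g⁻¹) = g * (s * s) * g⁻¹ := by group
      _ = 1 := by rw [h3]; group
  · intro h
    apply h4
    calc s = g⁻¹ * (g * s * g⁻¹) * g := by group
      _ = 1 := by rw [h]; group
  · intro h
    exact h5 (mul_left_cancel (mul_right_cancel h))
  · intro h
    exact h6 (mul_left_cancel (mul_right_cancel h))
  · intro h
    apply h7
    have h' : g * s * g⁻¹ = g * (j * t) * g⁻¹ := by rw [h]; group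
    exact mul_left_cancel (mul_right_cancel h')

theorem fw_top_conj (g : G) {j t z : G} (h : FwTop j t z) :
    FwTop (g * j * g⁻¹) (g * t * g⁻¹) (g * z * g⁻¹) := by
  obtain ⟨i, ⟨s, hs, s', hs', hc⟩, hu⟩ := h
  refine ⟨i, ⟨g * s * g⁻¹, fw_S_conj g hs, g * s' * g⁻¹, fw_S_conj g hs', ?_⟩, ?_⟩
  · have e : g * s * g⁻¹ * (g * s' * g⁻¹) = g * (s * s') * g⁻¹ := by group
    rw [e, conj_pow, hc]
  · intro r hr r' hr' m h1 h2
    have hback : ∀ r, r ∈ fwS (g * j * g⁻¹) (g * t * g⁻¹) → g⁻¹ * r * g ∈ fwS j t := by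
      intro r hr
      have h3 := fw_S_conj g⁻¹ hr
      have e1 : g⁻¹ * (g * j * g⁻¹) * g⁻¹⁻¹ = j := by group
      have e2 : g⁻¹ * (g * t * g⁻¹) * g⁻¹⁻¹ = t := by group
      rw [e1, e2, inv_inv] at h3
      exact h3
    have e : r * r' = g * ((g⁻¹ * r * g) * (g⁻¹ * r' * g)) * g⁻¹ := by group
    rw [e, conj_pow] at h1 h2 ⊢
    obtain ⟨W, hW⟩ : ∃ W : G, W = ((g⁻¹ * r * g) * (g⁻¹ * r' * g)) ^ (m * 2 ^ i) := ⟨_, rfl⟩
    rw [← hW] at h1 h2 ⊢
    have h1' : W * W = 1 := by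
      calc W * W = g⁻¹ * (g * W * g⁻¹ * (g * W * g⁻¹)) * g := by group
        _ = 1 := by rw [h1]; group
    have h2' : W ≠ 1 := by
      intro h
      apply h2
      rw [h]; group
    have h3 := hu _ (hback r hr) _ (hback r' hr') m (by rw [← hW]; exact h1')
      (by rw [← hW]; exact h2')
    rw [← hW] at h3
    rw [h3]

theorem FwCfg.symm {A B : Subgroup G} {j : G} (H : FwCfg A B j) : FwCfg B A j where
  hc := fun x hx y hy => (H.hc y hy x hx).symm
  hm := fun x hx hy => H.hm x hy hx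
  hjA := H.hjB
  hjB := H.hjA
  hj1 := H.hj1
  hj2 := H.hj2
  uA := H.uB
  uB := H.uA
  invA := H.invB
  invB := H.invA
  sqA := H.sqB
  sqB := H.sqA
  hinvol := fun s h1 h2 h3 h4 => by
    obtain ⟨a, ha, b, hb, rfl, ha2, hb2⟩ := H.hinvol s h1 h2 h3 h4
    exact ⟨b, hb, a, ha, H.hc a ha b hb, hb2, ha2⟩

theorem FwCfg.commA {A B : Subgroup G} {j : G} (H : FwCfg A B j) {a : G} (ha : a ∈ A) :
    a * j = j * a := H.hc a ha j H.hjB

theorem FwCfg.commB {A B : Subgroup G} {j : G} (H : FwCfg A B j) {b : G} (hb : b ∈ B) :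
    b * j = j * b := (H.hc j H.hjA b hb).symm

/-- the inverse of a square root of `j`. -/
theorem FwCfg.inv_eq {A B : Subgroup G} {j : G} (H : FwCfg A B j) {x : G} (hx : x ∈ A)
    (hx2 : x * x = j) : x⁻¹ = j * x := by
  have h : x * (j * x) = 1 := by
    rw [← mul_assoc, H.commA hx, mul_assoc, hx2, H.hj2]
  exact inv_eq_of_mul_eq_one_right h

/-- commuting square roots of `j` in `A` agree up to `j`. -/
theorem FwCfg.uniq {A B : Subgroup G} {j : G} (H : FwCfg A B j) {x a : G} (hx : x ∈ A)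
    (ha : a ∈ A) (hx2 : x * x = j) (ha2 : a * a = j) (hax : a * x = x * a) :
    a = x ∨ a = j * x := by
  have hb : (a * x⁻¹) * (a * x⁻¹) = 1 := by
    have h1 : x⁻¹ * a = a * x⁻¹ := by
      calc x⁻¹ * a = x⁻¹ * (a * x) * x⁻¹ := by group
        _ = x⁻¹ * (x * a) * x⁻¹ := by rw [hax]
        _ = a * x⁻¹ := by group
    calc a * x⁻¹ * (a * x⁻¹) = a * (x⁻¹ * a) * x⁻¹ := by group
      _ = a * (a * x⁻¹) * x⁻¹ := by rw [h1]
      _ = (a * a) * (x * x)⁻¹ := by group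
      _ = 1 := by rw [hx2, ha2, mul_inv_cancel]
  rcases H.uA _ (A.mul_mem ha (A.inv_mem hx)) hb with h | h
  · left
    calc a = (a * x⁻¹) * x := by group
      _ = x := by rw [h, one_mul]
  · right
    calc a = (a * x⁻¹) * x := by group
      _ = j * x := by rw [h]

/-- a square root of `j` in `A` is not in `B`. -/
theorem FwCfg.not_both {A B : Subgroup G} {j : G} (H : FwCfg A B j) {x : G} (hxA : x ∈ A)
    (hxB : x ∈ B) (h2 : x * x = j) : False := by
  rcases H.hm x hxA hxB with h | h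
  · rw [h, one_mul] at h2
    exact H.hj1 h2.symm
  · rw [h, H.hj2] at h2
    exact H.hj1 h2.symm

/-- an element inverting a square root `x` of `j` does not commute with `x`. -/
theorem FwCfg.not_comm {A B : Subgroup G} {j : G} (H : FwCfg A B j) {x a : G} (hx : x ∈ A)
    (hx2 : x * x = j) (hax : a * x * a⁻¹ = x⁻¹) (hcomm : a * x = x * a) : False := by
  have h1 : a * x * a⁻¹ = x := by rw [hcomm]; group
  rw [h1] at hax
  have h2 : x * x = 1 := by
    calc x * x = x * x⁻¹ := by rw [← hax]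
      _ = 1 := mul_inv_cancel x
  rw [hx2] at h2
  exact H.hj1 h2

end FWKey

end Cfsg.Agent.Helper54
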