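/-
helper54: S3211 (Fong–Wong), abstract part II: the key lemma `fw_key` (`j` is the top
2-divisible involution of `S * S`) and the isolation theorem `fw_isolated`.
Names prefixed `fw_` / `Fw`.
-/
import Mathlib
import Cfsg.Agent.Helper54.FWKey

set_option autoImplicit false
set_option linter.style.haveILetI false
set_option linter.unusedSectionVars false
set_option linter.unusedVariables false

namespace Cfsg.Agent.Helper54

section FWKey2

variable {G : Type*} [Group G]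

/-- description of `S` from the side of `j`: products of inverting elements. -/
theorem fw_S_sub {A B : Subgroup G} {j : G} (H : FwCfg A B j) {x y : G} (hx : x ∈ A)
    (hy : y ∈ B) (hx2 : x * x = j) (hy2 : y * y = j) {s : G} (hs : s ∈ fwS j (x * y)) :
    ∃ a ∈ A, ∃ b ∈ B, s = a * b ∧ a * x * a⁻¹ = x⁻¹ ∧ b * y * b⁻¹ = y⁻¹ := by
  obtain ⟨h1, h2, h3, h4, h5, h6, h7⟩ := hs
  obtain ⟨a, ha, b, hb, rfl, ha2, hb2⟩ := H.hinvol s h1 h3 h4 h5
  have hbx := H.hc x hx b hb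
  have hay := H.hc a ha y hy
  have e1 : a * x * (b * y) = x * a * (y * b) := by
    calc a * x * (b * y) = a * (x * b) * y := by group
      _ = a * (b * x) * y := by rw [hbx]
      _ = a * b * (x * y) := by group
      _ = x * y * (a * b) := h2
      _ = x * (y * a) * b := by group
      _ = x * (a * y) * b := by rw [hay]
      _ = x * a * (y * b) := by group
  have hu : a⁻¹ * x⁻¹ * a * x = y * b * y⁻¹ * b⁻¹ := by
    calc a⁻¹ * x⁻¹ * a * x = (x * a)⁻¹ * (a * x * (b * y)) * (b * y)⁻¹ := by group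
      _ = (x * a)⁻¹ * (x * a * (y * b)) * (b * y)⁻¹ := by rw [e1]
      _ = y * b * y⁻¹ * b⁻¹ := by group
  have huA : a⁻¹ * x⁻¹ * a * x ∈ A :=
    A.mul_mem (A.mul_mem (A.mul_mem (A.inv_mem ha) (A.inv_mem hx)) ha) hx
  have huB : a⁻¹ * x⁻¹ * a * x ∈ B := by
    rw [hu]
    exact B.mul_mem (B.mul_mem (B.mul_mem hy hb) (B.inv_mem hy)) (B.inv_mem hb)
  have hjx : x * j = j * x := H.commA hx
  rcases H.hm _ huA huB with h | h
  · exfalso
    have hax : a * x = x * a := by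
      calc a * x = x * a * (a⁻¹ * x⁻¹ * a * x) := by group
        _ = x * a := by rw [h, mul_one]
    have hby : b * y = y * b := by
      have h' : y * b * y⁻¹ * b⁻¹ = 1 := by rw [← hu]; exact h
      calc b * y = (y * b * y⁻¹ * b⁻¹)⁻¹ * (y * b) := by group
        _ = y * b := by rw [h', inv_one, one_mul]
    rcases H.uniq hx ha hx2 ha2 hax with c | c <;>
      rcases H.symm.uniq hy hb hy2 hb2 hby with c' | c'
    · apply h6; rw [c, c']
    · apply h7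
      rw [c, c']
      calc x * (j * y) = (x * j) * y := by group
        _ = (j * x) * y := by rw [hjx]
        _ = j * (x * y) := by group
    · apply h7
      rw [c, c']; group
    · apply h6
      rw [c, c']
      calc j * x * (j * y) = j * (x * j) * y := by group
        _ = j * (j * x) * y := by rw [hjx]
        _ = (j * j) * (x * y) := by group
        _ = x * y := by rw [H.hj2, one_mul]
  · refine ⟨a, ha, b, hb, rfl, ?_, ?_⟩
    · have hax : a * x = x * a * j := by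
        calc a * x = x * a * (a⁻¹ * x⁻¹ * a * x) := by group
          _ = x * a * j := by rw [h]
      rw [H.inv_eq hx hx2, hax]
      calc x * a * j * a⁻¹ = x * (a * j) * a⁻¹ := by group
        _ = x * (j * a) * a⁻¹ := by rw [H.commA ha]
        _ = x * j := by group
        _ = j * x := hjx
    · have h' : y * b * y⁻¹ * b⁻¹ = j := by rw [← hu]; exact h
      have hyb : y * b = j * (b * y) := by
        calc y * b = (y * b * y⁻¹ * b⁻¹) * (b * y) := by group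
          _ = j * (b * y) := by rw [h']
      have hby : b * y = j * (y * b) := by
        rw [hyb, ← mul_assoc, H.hj2, one_mul]
      rw [H.symm.inv_eq hy hy2, hby]
      group

/-- conversely, products of inverting elements are in `S`. -/
theorem fw_S_sup {A B : Subgroup G} {j : G} (H : FwCfg A B j) {x y : G} (hx : x ∈ A)
    (hy : y ∈ B) (hx2 : x * x = j) (hy2 : y * y = j) {a b : G} (ha : a ∈ A) (hb : b ∈ B)
    (hax : a * x * a⁻¹ = x⁻¹) (hby : b * y * b⁻¹ = y⁻¹) : a * b ∈ fwS j (x * y) := by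
  have ha2 : a * a = j := H.sqA x hx hx2 a ha hax
  have hb2 : b * b = j := H.sqB y hy hy2 b hb hby
  have hab := H.hc a ha b hb
  have hjx : x * j = j * x := H.commA hx
  have hax' : a * x = x⁻¹ * a := by
    calc a * x = (a * x * a⁻¹) * a := by group
      _ = x⁻¹ * a := by rw [hax]
  have hby' : b * y = y⁻¹ * b := by
    calc b * y = (b * y * b⁻¹) * b := by group
      _ = y⁻¹ * b := by rw [hby]
  -- in each excluded case `a` commutes with `x` or lies in `B`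
  have hexc : ∀ e ∈ A, e * x = x * e → a * b ≠ e * (x * y) := by
    intro e he hex h
    -- `x⁻¹ e⁻¹ a = y b⁻¹ ∈ A ⊓ B`
    have h1 : x⁻¹ * e⁻¹ * a = y * b⁻¹ := by
      calc x⁻¹ * e⁻¹ * a = x⁻¹ * e⁻¹ * (a * b) * b⁻¹ := by group
        _ = x⁻¹ * e⁻¹ * (e * (x * y)) * b⁻¹ := by rw [h]
        _ = y * b⁻¹ := by group
    have hA : x⁻¹ * e⁻¹ * a ∈ A := A.mul_mem (A.mul_mem (A.inv_mem hx) (A.inv_mem he)) ha
    have hB : x⁻¹ * e⁻¹ * a ∈ B := by rw [h1]; exact B.mul_mem hy (B.inv_mem hb)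
    have hcx : (x⁻¹ * e⁻¹ * a) * x = x * (x⁻¹ * e⁻¹ * a) := by
      rcases H.hm _ hA hB with h' | h'
      · rw [h', one_mul, mul_one]
      · rw [h', hjx]
    apply H.not_comm hx hx2 hax
    have hex' : e * x * x = x * (e * x) := by
      calc e * x * x = (x * e) * x := by rw [hex]
        _ = x * (e * x) := by group
    calc a * x = e * x * ((x⁻¹ * e⁻¹ * a) * x) := by group
      _ = e * x * (x * (x⁻¹ * e⁻¹ * a)) := by rw [hcx]
      _ = (e * x * x) * (x⁻¹ * e⁻¹ * a) := by group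
      _ = (x * (e * x)) * (x⁻¹ * e⁻¹ * a) := by rw [hex']
      _ = x * a := by group
  refine ⟨?_, ?_, ?_, ?_, ?_, ?_, ?_⟩
  · calc a * b * j = a * (b * j) := by group
      _ = a * (j * b) := by rw [H.commB hb]
      _ = (a * j) * b := by group
      _ = (j * a) * b := by rw [H.commA ha]
      _ = j * (a * b) := by group
  · have hay := H.hc a ha y⁻¹ (B.inv_mem hy)
    have hbx := H.hc x hx b hb
    calc a * b * (x * y) = a * (b * x) * y := by group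
      _ = a * (x * b) * y := by rw [hbx]
      _ = (a * x) * (b * y) := by group
      _ = (x⁻¹ * a) * (y⁻¹ * b) := by rw [hax', hby']
      _ = x⁻¹ * (a * y⁻¹) * b := by group
      _ = x⁻¹ * (y⁻¹ * a) * b := by rw [hay]
      _ = (x⁻¹ * y⁻¹) * (a * b) := by group
      _ = (j * x * (j * y)) * (a * b) := by rw [H.inv_eq hx hx2, H.symm.inv_eq hy hy2]
      _ = (j * (x * j) * y) * (a * b) := by group
      _ = (j * (j * x) * y) * (a * b) := by rw [hjx]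
      _ = ((j * j) * (x * y)) * (a * b) := by group
      _ = x * y * (a * b) := by rw [H.hj2, one_mul]
  · calc a * b * (a * b) = a * (b * a) * b := by group
      _ = a * (a * b) * b := by rw [hab]
      _ = (a * a) * (b * b) := by group
      _ = 1 := by rw [ha2, hb2, H.hj2]
  · intro h
    apply H.not_both ha _ ha2
    have : a = b⁻¹ := by
      calc a = (a * b) * b⁻¹ := by group
        _ = b⁻¹ := by rw [h, one_mul]
    rw [this]; exact B.inv_mem hb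
  · intro h
    apply H.not_both ha _ ha2
    have : a = j * b⁻¹ := by
      calc a = (a * b) * b⁻¹ := by group
        _ = j * b⁻¹ := by rw [h]
    rw [this]; exact B.mul_mem H.hjB (B.inv_mem hb)
  · have := hexc 1 A.one_mem (by rw [one_mul, mul_one])
    rw [one_mul] at this
    exact this
  · have := hexc j H.hjA hjx.symm
    intro h
    exact this h

/-- the key lemma: `j` is the top 2-divisible involution of `S * S`. -/
theorem fw_key [Finite G] {A B : Subgroup G} {j : G} (H : FwCfg A B j) {t : G}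
    (htj : t * j = j * t) (ht2 : t * t = 1) (ht1 : t ≠ 1) (htne : t ≠ j) : FwTop j t j := by
  classical
  haveI : Fact (Nat.Prime 2) := ⟨Nat.prime_two⟩
  obtain ⟨x, hx, y, hy, rfl, hx2, hy2⟩ := H.hinvol t htj ht2 ht1 htne
  obtain ⟨a₀, ha₀, ha₀x⟩ := H.invA x hx hx2
  obtain ⟨b₀, hb₀, hb₀y⟩ := H.invB y hy hy2
  -- `S * S ⊆ C_A(x) C_B(y)`
  have K3 : ∀ s ∈ fwS j (x * y), ∀ s' ∈ fwS j (x * y), ∃ c₁ ∈ A, ∃ c₂ ∈ B,
      c₁ * x = x * c₁ ∧ c₂ * y = y * c₂ ∧ s * s' = c₁ * c₂ := by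
    intro s hs s' hs'
    obtain ⟨a, ha, b, hb, rfl, hax, hby⟩ := fw_S_sub H hx hy hx2 hy2 hs
    obtain ⟨a', ha', b', hb', rfl, hax', hby'⟩ := fw_S_sub H hx hy hx2 hy2 hs'
    refine ⟨a * a', A.mul_mem ha ha', b * b', B.mul_mem hb hb', ?_, ?_, ?_⟩
    · calc a * a' * x = a * (a' * x * a'⁻¹) * a' := by group
        _ = a * x⁻¹ * a' := by rw [hax']
        _ = (a * x * a⁻¹)⁻¹ * a * a' := by group
        _ = x * (a * a') := by rw [hax]; group
    · calc b * b' * y = b * (b' * y * b'⁻¹) * b' := by group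
        _ = b * y⁻¹ * b' := by rw [hby']
        _ = (b * y * b⁻¹)⁻¹ * b * b' := by group
        _ = y * (b * b') := by rw [hby]; group
    · have h := H.hc a' ha' b hb
      calc a * b * (a' * b') = a * (b * a') * b' := by group
        _ = a * (a' * b) * b' := by rw [h]
        _ = a * a' * (b * b') := by group
  -- `C_A(x) C_B(y) ⊆ S * S`
  have K4 : ∀ c₁ ∈ A, ∀ c₂ ∈ B, c₁ * x = x * c₁ → c₂ * y = y * c₂ →
      ∃ s ∈ fwS j (x * y), ∃ s' ∈ fwS j (x * y), c₁ * c₂ = s * s' := by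
    intro c₁ hc₁ c₂ hc₂ h1 h2
    refine ⟨(c₁ * a₀) * (c₂ * b₀), fw_S_sup H hx hy hx2 hy2 (A.mul_mem hc₁ ha₀)
      (B.mul_mem hc₂ hb₀) ?_ ?_, a₀⁻¹ * b₀⁻¹, fw_S_sup H hx hy hx2 hy2 (A.inv_mem ha₀)
      (B.inv_mem hb₀) ?_ ?_, ?_⟩
    · have h1' : c₁ * x⁻¹ * c₁⁻¹ = x⁻¹ := by
        calc c₁ * x⁻¹ * c₁⁻¹ = x⁻¹ * (x * c₁) * x⁻¹ * c₁⁻¹ := by group
          _ = x⁻¹ * (c₁ * x) * x⁻¹ * c₁⁻¹ := by rw [h1]
          _ = x⁻¹ := by group
      calc c₁ * a₀ * x * (c₁ * a₀)⁻¹ = c₁ * (a₀ * x * a₀⁻¹) * c₁⁻¹ := by group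
        _ = c₁ * x⁻¹ * c₁⁻¹ := by rw [ha₀x]
        _ = x⁻¹ := h1'
    · have h2' : c₂ * y⁻¹ * c₂⁻¹ = y⁻¹ := by
        calc c₂ * y⁻¹ * c₂⁻¹ = y⁻¹ * (y * c₂) * y⁻¹ * c₂⁻¹ := by group
          _ = y⁻¹ * (c₂ * y) * y⁻¹ * c₂⁻¹ := by rw [h2]
          _ = y⁻¹ := by group
      calc c₂ * b₀ * y * (c₂ * b₀)⁻¹ = c₂ * (b₀ * y * b₀⁻¹) * c₂⁻¹ := by group
        _ = c₂ * y⁻¹ * c₂⁻¹ := by rw [hb₀y]
        _ = y⁻¹ := h2'
    · calc a₀⁻¹ * x * a₀⁻¹⁻¹ = a₀⁻¹ * (x⁻¹)⁻¹ * a₀ := by group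
        _ = a₀⁻¹ * (a₀ * x * a₀⁻¹)⁻¹ * a₀ := by rw [ha₀x]
        _ = x⁻¹ := by group
    · calc b₀⁻¹ * y * b₀⁻¹⁻¹ = b₀⁻¹ * (y⁻¹)⁻¹ * b₀ := by group
        _ = b₀⁻¹ * (b₀ * y * b₀⁻¹)⁻¹ * b₀ := by rw [hb₀y]
        _ = y⁻¹ := by group
    · have h := H.hc a₀⁻¹ (A.inv_mem ha₀) (c₂ * b₀) (B.mul_mem hc₂ hb₀)
      calc c₁ * c₂ = c₁ * a₀ * (a₀⁻¹ * (c₂ * b₀)) * b₀⁻¹ := by group
        _ = c₁ * a₀ * ((c₂ * b₀) * a₀⁻¹) * b₀⁻¹ := by rw [h]
        _ = c₁ * a₀ * (c₂ * b₀) * (a₀⁻¹ * b₀⁻¹) := by group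
  -- the largest `i` such that `j` is a `2^i`-th power in `C_A(x) C_B(y)`
  obtain ⟨P, hP⟩ : ∃ P : ℕ → Prop, P = fun i => ∃ c₁ ∈ A, ∃ c₂ ∈ B,
      c₁ * x = x * c₁ ∧ c₂ * y = y * c₂ ∧ (c₁ * c₂) ^ (2 ^ i) = j := ⟨_, rfl⟩
  have hP1 : P 1 := by
    rw [hP]
    refine ⟨x, hx, 1, B.one_mem, rfl, by rw [one_mul, mul_one], ?_⟩
    rw [mul_one, pow_one, pow_two]; exact hx2
  have hPb : ∀ i, P i → i < Nat.card G := by
    intro i hi
    rw [hP] at hi
    obtain ⟨c₁, -, c₂, -, -, -, hc⟩ := hi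
    have h1 : ¬ (c₁ * c₂) ^ 2 ^ i = 1 := by rw [hc]; exact H.hj1
    have h2 : (c₁ * c₂) ^ 2 ^ (i + 1) = 1 := by
      rw [pow_succ, pow_mul, hc, pow_two, H.hj2]
    have h3 := orderOf_eq_prime_pow h1 h2
    have h4 : orderOf (c₁ * c₂) ≤ Nat.card G :=
      Nat.le_of_dvd Nat.card_pos (orderOf_dvd_natCard _)
    have h5 : i < 2 ^ (i + 1) := lt_trans (Nat.lt_two_pow_self) (Nat.pow_lt_pow_right (by norm_num) (Nat.lt_succ_self i))
    omega
  obtain ⟨i₀, hi₀⟩ : ∃ i₀ : ℕ, i₀ = Nat.findGreatest P (Nat.card G) := ⟨_, rfl⟩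
  have hPi₀ : P i₀ := by
    rw [hi₀]
    exact Nat.findGreatest_spec (Nat.card_pos : 0 < Nat.card G) hP1
  have hmax : ∀ k, P k → k ≤ i₀ := by
    intro k hk
    rw [hi₀]
    exact Nat.le_findGreatest (le_of_lt (hPb k hk)) hk
  -- the odd part of the order of `G`
  obtain ⟨e, o, ho, hN⟩ := Nat.exists_eq_two_pow_mul_odd (Nat.card_pos (α := G)).ne'
  -- 2-elements of `C_A(x)` and `C_B(y)` have order at most `2^(i₀+1)`
  have hdeep : ∀ A' B' : Subgroup G, ∀ x' y' : G, FwCfg A' B' j →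
      (∀ k, (∃ c₁ ∈ A', ∃ c₂ ∈ B', c₁ * x' = x' * c₁ ∧ c₂ * y' = y' * c₂ ∧
        (c₁ * c₂) ^ (2 ^ k) = j) → k ≤ i₀) →
      ∀ a ∈ A', a * x' = x' * a → a ^ (2 ^ e) = 1 → a ^ (2 ^ i₀) = 1 ∨ a ^ (2 ^ i₀) = j := by
    intro A' B' x' y' H' hmax' a ha hax hae
    apply H'.uA _ (A'.pow_mem ha _)
    by_contra hne
    have hex : ∃ m, a ^ (2 ^ m) = 1 := ⟨e, hae⟩
    have hfind := Nat.find_spec hex
    have hm0 : i₀ + 1 < Nat.find hex := by
      by_contra hle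
      push_neg at hle
      apply hne
      rw [← pow_two, ← pow_mul, ← pow_succ]
      obtain ⟨d, hd⟩ := Nat.exists_eq_add_of_le hle
      rw [hd, pow_add, pow_mul, hfind, one_pow]
    obtain ⟨m₁, hm₁⟩ : ∃ m₁, Nat.find hex = m₁ + 1 := ⟨Nat.find hex - 1, by omega⟩
    have hu1 : a ^ (2 ^ m₁) ≠ 1 := Nat.find_min hex (by omega)
    have hu2 : a ^ (2 ^ m₁) * a ^ (2 ^ m₁) = 1 := by
      rw [← pow_two, ← pow_mul, ← pow_succ, ← hm₁]; exact hfind
    have huj : a ^ (2 ^ m₁) = j := by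
      rcases H'.uA _ (A'.pow_mem ha _) hu2 with h | h
      · exact absurd h hu1
      · exact h
    have := hmax' m₁ ⟨a, ha, 1, B'.one_mem, hax, by rw [one_mul, mul_one], by
      rw [mul_one]; exact huj⟩
    omega
  have hmaxA : ∀ k, (∃ c₁ ∈ A, ∃ c₂ ∈ B, c₁ * x = x * c₁ ∧ c₂ * y = y * c₂ ∧
      (c₁ * c₂) ^ (2 ^ k) = j) → k ≤ i₀ := by
    intro k hk
    apply hmax
    rw [hP]; exact hk
  have hmaxB : ∀ k, (∃ c₁ ∈ B, ∃ c₂ ∈ A, c₁ * y = y * c₁ ∧ c₂ * x = x * c₂ ∧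
      (c₁ * c₂) ^ (2 ^ k) = j) → k ≤ i₀ := by
    rintro k ⟨c₁, hc₁, c₂, hc₂, h1, h2, h3⟩
    apply hmaxA
    refine ⟨c₂, hc₂, c₁, hc₁, h2, h1, ?_⟩
    rw [H.hc c₂ hc₂ c₁ hc₁]; exact h3
  refine ⟨i₀, ?_, ?_⟩
  · rw [hP] at hPi₀
    obtain ⟨c₁, hc₁, c₂, hc₂, h1, h2, hc⟩ := hPi₀
    obtain ⟨s, hs, s', hs', hss⟩ := K4 c₁ hc₁ c₂ hc₂ h1 h2
    exact ⟨s, hs, s', hs', by rw [← hss]; exact hc⟩
  · intro s hs s' hs' m hw2 hw1
    obtain ⟨c₁, hc₁, c₂, hc₂, h1, h2, hss⟩ := K3 s hs s' hs'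
    rw [hss] at hw2 hw1 ⊢
    obtain ⟨w, hw⟩ : ∃ w : G, w = (c₁ * c₂) ^ (m * 2 ^ i₀) := ⟨_, rfl⟩
    rw [← hw] at hw2 hw1 ⊢
    have hcomm : Commute c₁ c₂ := H.hc c₁ hc₁ c₂ hc₂
    -- `w = w ^ o`
    have hwo : w ^ o = w := by
      obtain ⟨k, hk⟩ := ho
      rw [hk, pow_succ, pow_mul, pow_two, hw2, one_pow, one_mul]
    -- `w ^ o = α * β`
    have hα : (c₁ ^ (m * o)) ^ (2 ^ i₀) = 1 ∨ (c₁ ^ (m * o)) ^ (2 ^ i₀) = j := by
      apply hdeep A B x y H hmaxA _ (A.pow_mem hc₁ _)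
      · exact ((Commute.pow_left (show Commute c₁ x from h1) (m * o))).eq
      · rw [← pow_mul]
        have : m * o * 2 ^ e = Nat.card G * m := by rw [hN]; ring
        rw [this, pow_mul, pow_card_eq_one', one_pow]
    have hβ : (c₂ ^ (m * o)) ^ (2 ^ i₀) = 1 ∨ (c₂ ^ (m * o)) ^ (2 ^ i₀) = j := by
      apply hdeep B A y x H.symm hmaxB _ (B.pow_mem hc₂ _)
      · exact ((Commute.pow_left (show Commute c₂ y from h2) (m * o))).eq
      · rw [← pow_mul]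
        have : m * o * 2 ^ e = Nat.card G * m := by rw [hN]; ring
        rw [this, pow_mul, pow_card_eq_one', one_pow]
    have hwαβ : w = (c₁ ^ (m * o)) ^ (2 ^ i₀) * (c₂ ^ (m * o)) ^ (2 ^ i₀) := by
      rw [← hwo, hw, ← pow_mul, hcomm.mul_pow, ← pow_mul, ← pow_mul]
      have : m * 2 ^ i₀ * o = m * o * 2 ^ i₀ := by ring
      rw [this]
    rcases hα with h | h <;> rcases hβ with h' | h'
    · exfalso; apply hw1; rw [hwαβ, h, h', one_mul]
    · rw [hwαβ, h, h', one_mul]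
    · rw [hwαβ, h, h', mul_one]
    · exfalso; apply hw1; rw [hwαβ, h, h', H.hj2]

/-- `j` commutes with none of its other conjugates. -/
theorem fw_isolated [Finite G] {A B : Subgroup G} {j : G} (H : FwCfg A B j) (g : G)
    (hcomm : (g * j * g⁻¹) * j = j * (g * j * g⁻¹)) : g * j * g⁻¹ = j := by
  by_contra hne
  have hconj2 : ∀ k : G, (k * j * k⁻¹) * (k * j * k⁻¹) = 1 := by
    intro k
    calc k * j * k⁻¹ * (k * j * k⁻¹) = k * (j * j) * k⁻¹ := by group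
      _ = 1 := by rw [H.hj2]; group
  have hconj1 : ∀ k : G, k * j * k⁻¹ ≠ 1 := by
    intro k h
    apply H.hj1
    calc j = k⁻¹ * (k * j * k⁻¹) * k := by group
      _ = 1 := by rw [h]; group
  have h1 : FwTop j (g * j * g⁻¹) j := fw_key H hcomm (hconj2 g) (hconj1 g) hne
  have hcomm0 : (g⁻¹ * j * g⁻¹⁻¹) * j = j * (g⁻¹ * j * g⁻¹⁻¹) := by
    calc g⁻¹ * j * g⁻¹⁻¹ * j = g⁻¹ * (j * (g * j * g⁻¹)) * g := by group
      _ = g⁻¹ * ((g * j * g⁻¹) * j) * g := by rw [hcomm]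
      _ = j * (g⁻¹ * j * g⁻¹⁻¹) := by group
  have hne0 : g⁻¹ * j * g⁻¹⁻¹ ≠ j := by
    intro h
    apply hne
    calc g * j * g⁻¹ = g * (g⁻¹ * j * g⁻¹⁻¹) * g⁻¹ := by rw [h]
      _ = j := by group
  have h2 : FwTop j (g⁻¹ * j * g⁻¹⁻¹) j := fw_key H hcomm0 (hconj2 g⁻¹) (hconj1 g⁻¹) hne0
  have h3 := fw_top_conj g h2
  have e : g * (g⁻¹ * j * g⁻¹⁻¹) * g⁻¹ = j := by group
  rw [e] at h3
  have h4 : FwTop j (g * j * g⁻¹) (g * j * g⁻¹) := fw_top_symm hcomm h3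
  exact hne (fw_top_unique h1 h4 H.hj2 H.hj1 (hconj2 g) (hconj1 g)).symm

end FWKey2

end Cfsg.Agent.Helper54
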