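/-
helper54: S3211 (Fong–Wong), concrete part.  `L₁ ≅ SL₂(q₁)`, `L₂ ≅ SL₂(q₂)` commuting
elementwise, `L₁ ∩ L₂ = ⟨j⟩`, `L₁L₂` of index 2 in `C(j)`, an element `n ∈ C(j)` with `n² = j`
interchanging `L₁` and `L₂`.  Then `C(j) ∖ L₁L₂` has no involution, the configuration `FwCfg`
holds, `j` is isolated (`fw_isolated`), and by the Z*-theorem `G = C(j) O(G)`.
Names prefixed `fw_`.
-/
import Mathlib
import Cfsg.Agent.Helper54.FWKey2
import Cfsg.Agent.Helper54.C2Max
import Cfsg.Agent.Helper54.LBChain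
import Cfsg.Agent.Helper54.LBGenZ
import Cfsg.Agent.Helper53.SL2Pair
import Cfsg.Agent.Helper40.SL2Tori
import Cfsg.Agent.Helper40.SL2SylowTwo
import Cfsg.Agent.Helper40.SL2OrderFour

set_option autoImplicit false
set_option linter.style.haveILetI false
set_option linter.unusedSectionVars false
set_option linter.unusedVariables false

namespace Cfsg.Agent.Helper54

open Cfsg

section FWMain

/-- the facts about a subgroup `L ≅ SL₂(F)`, `F` finite of odd order, with involution `j`. -/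
theorem fw_sl2_facts {G : Type*} [Group G] {F : Type*} [Field F] [Fintype F]
    (hF : Odd (Fintype.card F)) (L : Subgroup G)
    (e : ↥L ≃* Matrix.SpecialLinearGroup (Fin 2) F) (j : G) (hjL : j ∈ L) (hj : orderOf j = 2) :
    (∀ b ∈ L, b * b = 1 → b = 1 ∨ b = j) ∧
    (∀ x ∈ L, x * x = j → ∃ a ∈ L, a * x * a⁻¹ = x⁻¹) ∧
    (∀ x ∈ L, x * x = j → ∀ a ∈ L, a * x * a⁻¹ = x⁻¹ → a * a = j) ∧
    (∃ a₀ ∈ L, a₀ * a₀ = j) := by
  have h2 : (2 : F) ≠ 0 := Cfsg.Agent.Helper53.two_ne_zero_of_odd_card hF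
  obtain ⟨hu, a₀, ha₀, ha₀2, hconj⟩ := Cfsg.Agent.Helper53.sl2_subgroup_invol hF L e j hjL hj
  have hj1 : j ≠ 1 := by
    intro h; rw [h, orderOf_one] at hj; omega
  have hjj : j * j = 1 := by rw [← pow_two, ← hj, pow_orderOf_eq_one]
  refine ⟨fun b hb hb2 => hu b hb (by rw [pow_two]; exact hb2), ?_, ?_,
    ⟨a₀, ha₀, by rw [← pow_two]; exact ha₀2⟩⟩
  · intro x hx hx2
    obtain ⟨g₁, hg₁, h1⟩ := hconj x hx (by rw [pow_two]; exact hx2)
    have hxi : x⁻¹ ^ 2 = j := by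
      rw [inv_pow, pow_two, hx2]
      exact inv_eq_of_mul_eq_one_right hjj
    obtain ⟨g₂, hg₂, h2'⟩ := hconj x⁻¹ (L.inv_mem hx) hxi
    refine ⟨g₂ * g₁⁻¹, L.mul_mem hg₂ (L.inv_mem hg₁), ?_⟩
    calc g₂ * g₁⁻¹ * x * (g₂ * g₁⁻¹)⁻¹ = g₂ * g₁⁻¹ * (g₁ * a₀ * g₁⁻¹) * (g₂ * g₁⁻¹)⁻¹ := by
          rw [h1]
      _ = g₂ * a₀ * g₂⁻¹ := by group
      _ = x⁻¹ := h2'
  · intro x hx hx2 a ha hax
    have hJ : e ⟨j, hjL⟩ * e ⟨j, hjL⟩ = 1 := by
      rw [← map_mul]
      have : (⟨j, hjL⟩ : ↥L) * ⟨j, hjL⟩ = 1 := Subtype.ext hjj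
      rw [this, map_one]
    have hJ1 : e ⟨j, hjL⟩ ≠ 1 := by
      intro h
      have h1 : (⟨j, hjL⟩ : ↥L) = 1 := e.injective (by rw [h, map_one])
      exact hj1 (congrArg Subtype.val h1)
    have hJc := Cfsg.Agent.Helper53.sl2_coe_eq_neg_one_of_invol h2 (e ⟨j, hjL⟩) hJ hJ1
    have hXX : e ⟨x, hx⟩ * e ⟨x, hx⟩ = e ⟨j, hjL⟩ := by
      rw [← map_mul]
      congr 1
      exact Subtype.ext hx2
    have hX : (e ⟨x, hx⟩).1 * (e ⟨x, hx⟩).1 = -1 := by
      have := congrArg (fun z : Matrix.SpecialLinearGroup (Fin 2) F => z.1) hXX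
      simp only [Matrix.SpecialLinearGroup.coe_mul] at this
      rw [this]; exact hJc
    have htr := Cfsg.Agent.Helper40.tr2_eq_zero_of_sq (e ⟨x, hx⟩) hX
    have hns := Cfsg.Agent.Helper40.nonScalar_of_tr2_eq_zero h2 (e ⟨x, hx⟩) htr
    have hinv : Cfsg.Agent.Helper40.Inverts (e ⟨a, ha⟩) (e ⟨x, hx⟩) := by
      unfold Cfsg.Agent.Helper40.Inverts
      have h3 : (⟨a, ha⟩ : ↥L) * ⟨x, hx⟩ * (⟨a, ha⟩ : ↥L)⁻¹ = (⟨x, hx⟩ : ↥L)⁻¹ := Subtype.ext hax
      have h4 := congrArg e h3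
      rw [map_mul, map_mul, map_inv, map_inv] at h4
      exact h4
    have hAA := Cfsg.Agent.Helper40.inverts_sq (e ⟨a, ha⟩) (e ⟨x, hx⟩) hns hinv
    have hAJ : e ⟨a, ha⟩ * e ⟨a, ha⟩ = e ⟨j, hjL⟩ := by
      apply Subtype.ext
      rw [Matrix.SpecialLinearGroup.coe_mul, hAA, ← hJc]
    rw [← map_mul] at hAJ
    exact congrArg Subtype.val (e.injective hAJ)

/-- the configuration of S3211 satisfies `FwCfg`. -/
theorem fw_cfg {G : Type*} [Group G] [Finite G]
    {F₁ : Type*} [Field F₁] [Fintype F₁] {F₂ : Type*} [Field F₂] [Fintype F₂]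
    (hF₁ : Odd (Fintype.card F₁)) (hF₂ : Odd (Fintype.card F₂)) (L₁ L₂ : Subgroup G)
    (e₁ : ↥L₁ ≃* Matrix.SpecialLinearGroup (Fin 2) F₁)
    (e₂ : ↥L₂ ≃* Matrix.SpecialLinearGroup (Fin 2) F₂)
    (hc : ∀ x ∈ L₁, ∀ y ∈ L₂, x * y = y * x) (j : G) (hj : orderOf j = 2)
    (hm : L₁ ⊓ L₂ = Subgroup.zpowers j)
    (hle : L₁ ⊔ L₂ ≤ Subgroup.centralizer ({j} : Set G))
    (hi : (L₁ ⊔ L₂).relIndex (Subgroup.centralizer ({j} : Set G)) = 2) (n : G)
    (hn : n ∈ Subgroup.centralizer ({j} : Set G))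
    (hn2 : n ^ 2 = j) (hswap : L₁.map (MulAut.conj n).toMonoidHom = L₂) :
    FwCfg L₁ L₂ j := by
  have hj1 : j ≠ 1 := by
    intro h; rw [h, orderOf_one] at hj; omega
  have hjj : j * j = 1 := by rw [← pow_two, ← hj, pow_orderOf_eq_one]
  have hjinv : j⁻¹ = j := inv_eq_of_mul_eq_one_right hjj
  have hjL : j ∈ L₁ ⊓ L₂ := by rw [hm]; exact Subgroup.mem_zpowers j
  have hjL₁ : j ∈ L₁ := (Subgroup.mem_inf.1 hjL).1
  have hjL₂ : j ∈ L₂ := (Subgroup.mem_inf.1 hjL).2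
  have hmm : ∀ x, x ∈ L₁ → x ∈ L₂ → x = 1 ∨ x = j := by
    intro x h1 h2
    exact c2t_mem_zpowers_invol hjj (by rw [← hm]; exact Subgroup.mem_inf.2 ⟨h1, h2⟩)
  obtain ⟨uA, invA, sqA, a₀, ha₀, ha₀2⟩ := fw_sl2_facts hF₁ L₁ e₁ j hjL₁ hj
  obtain ⟨uB, invB, sqB, -⟩ := fw_sl2_facts hF₂ L₂ e₂ j hjL₂ hj
  have hjA : ∀ a ∈ L₁, a * j = j * a := fun a ha => hc a ha j hjL₂
  have hjB : ∀ b ∈ L₂, b * j = j * b := fun b hb => (hc j hjL₁ b hb).symm
  have hnj : j * n = n * j := lbfus_comm_of_mem_cent_singleton hn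
  have hnn : n * n = j := by rw [← pow_two]; exact hn2
  have hsw1 : ∀ a ∈ L₁, n * a * n⁻¹ ∈ L₂ := by
    intro a ha
    rw [← hswap]
    exact ⟨a, ha, rfl⟩
  have hsw2 : ∀ b ∈ L₂, n * b * n⁻¹ ∈ L₁ := by
    intro b hb
    rw [← hswap] at hb
    obtain ⟨a, ha, rfl⟩ := hb
    have e : n * ((MulAut.conj n).toMonoidHom a) * n⁻¹ = a := by
      show n * (n * a * n⁻¹) * n⁻¹ = a
      calc n * (n * a * n⁻¹) * n⁻¹ = (n * n) * a * (n * n)⁻¹ := by group
        _ = j * a * j⁻¹ := by rw [hnn]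
        _ = (a * j) * j⁻¹ := by rw [hjA a ha]
        _ = a := by group
    rw [e]; exact ha
  have hnot : n ∉ L₁ ⊔ L₂ := by
    intro h
    obtain ⟨a, ha, b, hb, rfl⟩ := Cfsg.Agent.Helper53.exists_mul_of_mem_sup_of_commute L₁ L₂ hc h
    have h1 := hsw1 a₀ ha₀
    have e : a * b * a₀ * (a * b)⁻¹ = a * a₀ * a⁻¹ := by
      have := hc a₀ ha₀ b hb
      calc a * b * a₀ * (a * b)⁻¹ = a * (b * a₀) * b⁻¹ * a⁻¹ := by group
        _ = a * (a₀ * b) * b⁻¹ * a⁻¹ := by rw [this]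
        _ = a * a₀ * a⁻¹ := by group
    rw [e] at h1
    have h2 : a * a₀ * a⁻¹ ∈ L₁ := L₁.mul_mem (L₁.mul_mem ha ha₀) (L₁.inv_mem ha)
    have h3 : (a * a₀ * a⁻¹) * (a * a₀ * a⁻¹) = j := by
      calc (a * a₀ * a⁻¹) * (a * a₀ * a⁻¹) = a * (a₀ * a₀) * a⁻¹ := by group
        _ = (a * j) * a⁻¹ := by rw [ha₀2]
        _ = (j * a) * a⁻¹ := by rw [hjA a ha]
        _ = j := by group
    rcases hmm _ h2 h1 with h | h
    · rw [h, one_mul] at h3; exact hj1 h3.symm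
    · rw [h, hjj] at h3; exact hj1 h3.symm
  refine ⟨hc, hmm, hjL₁, hjL₂, hj1, hjj, uA, uB, invA, invB, sqA, sqB, ?_⟩
  intro s hsj hs2 hs1 hsne
  have hsC : s ∈ Subgroup.centralizer ({j} : Set G) := lbfus_mem_cent_singleton hsj.symm
  by_cases hsL : s ∈ L₁ ⊔ L₂
  · obtain ⟨a, ha, b, hb, rfl⟩ :=
      Cfsg.Agent.Helper53.exists_mul_of_mem_sup_of_commute L₁ L₂ hc hsL
    have hab := hc a ha b hb
    have h1 : (a * a) * (b * b) = 1 := by
      calc (a * a) * (b * b) = a * (a * b) * b := by group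
        _ = a * (b * a) * b := by rw [hab]
        _ = a * b * (a * b) := by group
        _ = 1 := hs2
    have haB : a * a ∈ L₂ := by
      have : a * a = (b * b)⁻¹ := eq_inv_of_mul_eq_one_left h1
      rw [this]; exact L₂.inv_mem (L₂.mul_mem hb hb)
    rcases hmm _ (L₁.mul_mem ha ha) haB with h | h
    · exfalso
      have hb2 : b * b = 1 := by rw [h, one_mul] at h1; exact h1
      rcases uA a ha h with h' | h' <;> rcases uB b hb hb2 with h'' | h''
      · apply hs1; rw [h', h'', one_mul]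
      · apply hsne; rw [h', h'', one_mul]
      · apply hsne; rw [h', h'', mul_one]
      · apply hs1; rw [h', h'', hjj]
    · refine ⟨a, ha, b, hb, rfl, h, ?_⟩
      rw [h] at h1
      calc b * b = j * (j * (b * b)) := by rw [← mul_assoc j j, hjj, one_mul]
        _ = j := by rw [h1, mul_one]
  · exfalso
    -- `n⁻¹ * s ∈ L₁ ⊔ L₂`
    have hidx : ((L₁ ⊔ L₂).subgroupOf (Subgroup.centralizer ({j} : Set G))).index = 2 := hi
    have hmem := Subgroup.mul_mem_iff_of_index_two hidx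
      (a := (⟨n⁻¹, Subgroup.inv_mem _ hn⟩ : ↥(Subgroup.centralizer ({j} : Set G))))
      (b := (⟨s, hsC⟩ : ↥(Subgroup.centralizer ({j} : Set G))))
    have h1 : n⁻¹ * s ∈ L₁ ⊔ L₂ := by
      have h2 : ((⟨n⁻¹, Subgroup.inv_mem _ hn⟩ : ↥(Subgroup.centralizer ({j} : Set G))) *
          ⟨s, hsC⟩) ∈ (L₁ ⊔ L₂).subgroupOf (Subgroup.centralizer ({j} : Set G)) := by
        rw [hmem]
        constructor
        · intro h
          exfalso
          apply hnot
          have h3 : n⁻¹ ∈ L₁ ⊔ L₂ := Subgroup.mem_subgroupOf.1 h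
          have := Subgroup.inv_mem _ h3
          rw [inv_inv] at this
          exact this
        · intro h
          exact absurd (Subgroup.mem_subgroupOf.1 h) hsL
      exact Subgroup.mem_subgroupOf.1 h2
    obtain ⟨a, ha, b, hb, hab⟩ :=
      Cfsg.Agent.Helper53.exists_mul_of_mem_sup_of_commute L₁ L₂ hc h1
    have hs : s = n * (a * b) := by
      calc s = n * (n⁻¹ * s) := by group
        _ = n * (a * b) := by rw [hab]
    have haν := hsw1 a ha
    have hbν := hsw2 b hb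
    obtain ⟨aν, haν_def⟩ : ∃ aν : G, aν = n * a * n⁻¹ := ⟨_, rfl⟩
    obtain ⟨bν, hbν_def⟩ : ∃ bν : G, bν = n * b * n⁻¹ := ⟨_, rfl⟩
    rw [← haν_def] at haν
    rw [← hbν_def] at hbν
    -- `s * s = j * ((bν * a) * (aν * b))`
    have hss : s * s = j * ((bν * a) * (aν * b)) := by
      have e1 : n * (a * b) = aν * bν * n := by rw [haν_def, hbν_def]; group
      have c1 := hjB aν haν
      have c2 := hjA bν hbν
      have c3 := hc bν hbν aν haν
      have c4 := hc a ha aν haν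
      calc s * s = (aν * bν * n) * (n * (a * b)) := by rw [hs, e1]
        _ = aν * bν * (n * n) * (a * b) := by group
        _ = aν * (bν * j) * (a * b) := by rw [hnn]; group
        _ = aν * (j * bν) * (a * b) := by rw [c2]
        _ = (aν * j) * bν * (a * b) := by group
        _ = (j * aν) * bν * (a * b) := by rw [c1]
        _ = j * (aν * bν) * (a * b) := by group
        _ = j * (bν * aν) * (a * b) := by rw [c3]
        _ = j * bν * (aν * a) * b := by group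
        _ = j * bν * (a * aν) * b := by rw [c4]
        _ = j * ((bν * a) * (aν * b)) := by group
    have hprod : (bν * a) * (aν * b) = j := by
      calc (bν * a) * (aν * b) = j * (j * ((bν * a) * (aν * b))) := by
            rw [← mul_assoc j j, hjj, one_mul]
        _ = j := by rw [← hss, hs2, mul_one]
    have ha' : bν * a ∈ L₁ := L₁.mul_mem hbν ha
    have hb' : aν * b ∈ L₂ := L₂.mul_mem haν hb
    have ha'B : bν * a ∈ L₂ := by
      have : bν * a = j * (aν * b)⁻¹ := by rw [← hprod]; group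
      rw [this]; exact L₂.mul_mem hjL₂ (L₂.inv_mem hb')
    have hconj : n * (bν * a) * n⁻¹ = b * aν := by
      have c := hjB b hb
      calc n * (bν * a) * n⁻¹ = (n * bν * n⁻¹) * (n * a * n⁻¹) := by group
        _ = ((n * n) * b * (n * n)⁻¹) * aν := by rw [hbν_def, ← haν_def]; group
        _ = (j * b * j⁻¹) * aν := by rw [hnn]
        _ = ((b * j) * j⁻¹) * aν := by rw [c]
        _ = b * aν := by group
    have hfix : n * (bν * a) * n⁻¹ = bν * a := by
      rcases hmm _ ha' ha'B with h | h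
      · rw [h]; group
      · rw [h]
        calc n * j * n⁻¹ = (j * n) * n⁻¹ := by rw [hnj]
          _ = j := by group
    have hb'eq : aν * b = bν * a := by
      have h3 : b * aν = bν * a := by rw [← hconj, hfix]
      have h4 : (bν * a) * b = b * (bν * a) := by
        rcases hmm _ ha' ha'B with h | h
        · rw [h, one_mul, mul_one]
        · rw [h]; exact (hjB b hb).symm
      calc aν * b = b⁻¹ * (b * aν) * b := by group
        _ = b⁻¹ * ((bν * a) * b) := by rw [h3]; group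
        _ = b⁻¹ * (b * (bν * a)) := by rw [h4]
        _ = bν * a := by group
    rw [hb'eq] at hprod
    rcases hmm _ ha' ha'B with h | h
    · rw [h, one_mul] at hprod; exact hj1 hprod.symm
    · rw [h, hjj] at hprod; exact hj1 hprod.symm

/-- S3211. -/
theorem fw_main {G : Type*} [Group G] [Finite G]
    {F₁ : Type*} [Field F₁] [Fintype F₁] {F₂ : Type*} [Field F₂] [Fintype F₂]
    (hF₁ : Odd (Fintype.card F₁)) (hF₂ : Odd (Fintype.card F₂)) (L₁ L₂ : Subgroup G)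
    (e₁ : ↥L₁ ≃* Matrix.SpecialLinearGroup (Fin 2) F₁)
    (e₂ : ↥L₂ ≃* Matrix.SpecialLinearGroup (Fin 2) F₂)
    (hc : ∀ x ∈ L₁, ∀ y ∈ L₂, x * y = y * x) (j : G) (hj : orderOf j = 2)
    (hm : L₁ ⊓ L₂ = Subgroup.zpowers j)
    (hle : L₁ ⊔ L₂ ≤ Subgroup.centralizer ({j} : Set G))
    (hi : (L₁ ⊔ L₂).relIndex (Subgroup.centralizer ({j} : Set G)) = 2) (n : G)
    (hn : n ∈ Subgroup.centralizer ({j} : Set G))
    (hn2 : n ^ 2 = j) (hswap : L₁.map (MulAut.conj n).toMonoidHom = L₂) :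
    Subgroup.centralizer ({j} : Set G) ⊔ pPrimeCore 2 G = ⊤ := by
  haveI : Fact (Nat.Prime 2) := ⟨Nat.prime_two⟩
  have H := fw_cfg hF₁ hF₂ L₁ L₂ e₁ e₂ hc j hj hm hle hi n hn hn2 hswap
  have hj1 := H.hj1
  have hjj := H.hj2
  have hjinv : j⁻¹ = j := inv_eq_of_mul_eq_one_right hjj
  have hiso : ∀ g : G, (g * j * g⁻¹) * j = j * (g * j * g⁻¹) → g * j * g⁻¹ = j :=
    fun g h => fw_isolated H g h
  -- a Sylow 2-subgroup of `C(j)` is a Sylow 2-subgroup of `G`
  have hQ : IsPGroup 2 (Subgroup.zpowers j) :=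
    lbloc_isPGroup_zpowers (k := 1) (by rw [pow_one, pow_two]; exact hjj)
  have hQC : Subgroup.zpowers j ≤ Subgroup.centralizer ({j} : Set G) := by
    rw [Subgroup.zpowers_le]; exact lbfus_mem_cent_singleton rfl
  obtain ⟨R, hRsyl, hjR⟩ := lbsyl_exists hQ hQC
  have hjR' : j ∈ R := hjR (Subgroup.mem_zpowers j)
  obtain ⟨P, hRP⟩ := hRsyl.2.1.exists_le_sylow
  have hRP' : R = (P : Subgroup G) := by
    by_contra hne
    obtain ⟨h, hhP, hhN, hhR⟩ := lbch_normalizer_grow P.2 hRP hne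
    have h1 : h * j * h⁻¹ ∈ R := (Subgroup.mem_normalizer_iff.1 hhN j).1 hjR'
    have h2 : (h * j * h⁻¹) * j = j * (h * j * h⁻¹) :=
      (lbfus_comm_of_mem_cent_singleton (hRsyl.1 h1)).symm
    have h3 := hiso h h2
    have hhC : h ∈ Subgroup.centralizer ({j} : Set G) := by
      apply lbfus_mem_cent_singleton
      calc j * h = (h * j * h⁻¹) * h := by rw [h3]
        _ = h * j := by group
    apply hhR
    exact lbsyl_mem_of_normalizes hRsyl hhC
      (P.2.to_le (by rw [Subgroup.zpowers_le]; exact hhP))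
      (fun r hr => (Subgroup.mem_normalizer_iff.1 hhN r).1 hr)
  have hjP : j ∈ (P : Subgroup G) := by rw [← hRP']; exact hjR'
  have hisoP : ∀ g : G, g * j * g⁻¹ ∈ P → g * j * g⁻¹ = j := by
    intro g hg
    have hg' : g * j * g⁻¹ ∈ R := by rw [hRP']; exact hg
    exact hiso g (lbfus_comm_of_mem_cent_singleton (hRsyl.1 hg')).symm
  have hZ := lbgz_main (Nat.card G) G le_rfl P j hjP hisoP
  -- conclusion
  rw [eq_top_iff]
  intro g _
  obtain ⟨c, hc_def⟩ : ∃ c : G, c = j * g * j⁻¹ * g⁻¹ := ⟨_, rfl⟩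
  have hcO : c ∈ pPrimeCore 2 G := by rw [hc_def]; exact hZ g
  have hodd : Odd (orderOf c) := by
    have h1 := Subgroup.orderOf_dvd_natCard (pPrimeCore 2 G) hcO
    have h2 := Cfsg.Agent.Helper22.card_pPrimeCore_coprime 2 G
    have h3 : (orderOf c).Coprime 2 := Nat.Coprime.coprime_dvd_left h1 h2
    exact Nat.coprime_two_right.1 h3
  obtain ⟨r, hr⟩ := hodd
  obtain ⟨d, hd_def⟩ : ∃ d : G, d = c ^ (r + 1) := ⟨_, rfl⟩
  have hdO : d ∈ pPrimeCore 2 G := by rw [hd_def]; exact Subgroup.pow_mem _ hcO _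
  have hdd : d * d = c := by
    rw [hd_def, ← pow_add]
    have : r + 1 + (r + 1) = orderOf c + 1 := by omega
    rw [this, pow_succ, pow_orderOf_eq_one, one_mul]
  have hjc : j * c * j⁻¹ = c⁻¹ := by
    rw [hc_def, hjinv]
    calc j * (j * g * j * g⁻¹) * j = (j * j) * g * j * g⁻¹ * j := by group
      _ = g * j * g⁻¹ * j := by rw [hjj, one_mul]
      _ = (j * g * j * g⁻¹)⁻¹ := by
          rw [mul_inv_rev, mul_inv_rev, mul_inv_rev, inv_inv, hjinv]
          group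
  have hjd : j * d * j⁻¹ = d⁻¹ := by
    rw [hd_def, ← conj_pow, hjc, inv_pow]
  have hjg : j * g * j⁻¹ = c * g := by rw [hc_def]; group
  have hdg : d * g ∈ Subgroup.centralizer ({j} : Set G) := by
    apply lbfus_mem_cent_singleton
    calc j * (d * g) = (j * d * j⁻¹) * (j * g * j⁻¹) * j := by group
      _ = d⁻¹ * (c * g) * j := by rw [hjd, hjg]
      _ = d⁻¹ * (d * d * g) * j := by rw [hdd]
      _ = d * g * j := by group
  have : g = d⁻¹ * (d * g) := by group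
  rw [this]
  exact Subgroup.mul_mem _ (Subgroup.mem_sup_right (Subgroup.inv_mem _ hdO))
    (Subgroup.mem_sup_left hdg)

end FWMain

end Cfsg.Agent.Helper54
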