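import Mathlib
import Cfsg.Agent.Helper54.ThreeInvolMain
import Cfsg.Agent.Helper49.BSQuat
import Cfsg.Prelude.Def_TwoFusion

set_option autoImplicit false
set_option linter.style.haveILetI false
set_option linter.unusedSectionVars false
set_option linter.unusedVariables false

/-!
# Sylow 2-subgroups with a generalized quaternion direct factor (helper54)

`qf_not_simple` (S3269, relative to the Z*-theorem for `G`): if a Sylow `2`-subgroup is `Q × R`
with `Q` generalized quaternion and all involutions of `R` central in `R`, then `G` is not simple.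
-/

namespace Cfsg.Agent.Helper54

open Subgroup

/-- The facts on a generalized quaternion subgroup used below: a central involution `z`, the only
involution of `Q`; central elements of `Q` square to one; `z` is a square in `Q`. -/
theorem qf_quat_facts {G : Type*} [Group G] (Q : Subgroup G) (N₀ : ℕ) (hN : 2 ≤ N₀)
    (eQ : ↥Q ≃* QuaternionGroup N₀) :
    ∃ z ∈ Q, z * z = 1 ∧ z ≠ 1 ∧ (∀ q ∈ Q, q * z = z * q) ∧
      (∀ q ∈ Q, q * q = 1 → q = 1 ∨ q = z) ∧
      (∀ q ∈ Q, (∀ q' ∈ Q, q' * q = q * q') → q * q = 1) ∧ ∃ u ∈ Q, u * u = z := by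
  have hN0 : N₀ ≠ 0 := by omega
  obtain ⟨zq, hzq⟩ : ∃ zq : QuaternionGroup N₀,
      zq = QuaternionGroup.a (N₀ : ZMod (2 * N₀)) := ⟨_, rfl⟩
  have hzq2 : zq * zq = 1 := by rw [hzq]; exact Cfsg.Agent.Helper49.quat_aN_sq
  have hzq1 : zq ≠ 1 := by rw [hzq]; exact Cfsg.Agent.Helper49.quat_aN_ne_one hN0
  have hzqc : ∀ r : QuaternionGroup N₀, r * zq = zq * r := by
    intro r
    cases r with
    | a i => rw [hzq, QuaternionGroup.a_mul_a, QuaternionGroup.a_mul_a, add_comm]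
    | xa i =>
      rw [hzq, QuaternionGroup.xa_mul_a, QuaternionGroup.a_mul_xa, QuaternionGroup.xa.injEq]
      have h1 : ((N₀ : ZMod (2 * N₀)) + N₀) = 0 := by
        have h2 : ((N₀ : ZMod (2 * N₀)) + N₀) = ((2 * N₀ : ℕ) : ZMod (2 * N₀)) := by
          push_cast; ring
        rw [h2, ZMod.natCast_self]
      linear_combination h1
  refine ⟨((eQ.symm zq : ↥Q) : G), (eQ.symm zq).2, ?_, ?_, ?_, ?_, ?_, ?_⟩
  · have h1 : eQ.symm zq * eQ.symm zq = 1 := by rw [← map_mul, hzq2, map_one]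
    exact congrArg Subtype.val h1
  · intro h
    apply hzq1
    have h1 : eQ.symm zq = 1 := Subtype.ext h
    have h2 := congrArg eQ h1
    simpa using h2
  · intro q hq
    have h1 : (⟨q, hq⟩ : ↥Q) * eQ.symm zq = eQ.symm zq * ⟨q, hq⟩ := by
      apply eQ.injective
      rw [map_mul, map_mul, MulEquiv.apply_symm_apply]
      exact hzqc _
    exact congrArg Subtype.val h1
  · intro q hq hqq
    have h1 : eQ ⟨q, hq⟩ * eQ ⟨q, hq⟩ = 1 := by
      rw [← map_mul]
      have h2 : (⟨q, hq⟩ : ↥Q) * ⟨q, hq⟩ = 1 := Subtype.ext hqq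
      rw [h2, map_one]
    rcases Cfsg.Agent.Helper49.quat_sq_eq_one hN0 _ h1 with h2 | h2
    · left
      have h3 : (⟨q, hq⟩ : ↥Q) = 1 := by
        apply eQ.injective; rw [h2, map_one]
      exact congrArg Subtype.val h3
    · right
      have h3 : (⟨q, hq⟩ : ↥Q) = eQ.symm zq := by
        apply eQ.injective; rw [h2, MulEquiv.apply_symm_apply, hzq]
      exact congrArg Subtype.val h3
  · intro q hq hcen
    have h1 : ∀ r : QuaternionGroup N₀, r * eQ ⟨q, hq⟩ = eQ ⟨q, hq⟩ * r := by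
      intro r
      have h2 := hcen (eQ.symm r : ↥Q) (eQ.symm r).2
      have h3 : eQ.symm r * (⟨q, hq⟩ : ↥Q) = ⟨q, hq⟩ * eQ.symm r := Subtype.ext h2
      have h4 := congrArg eQ h3
      rwa [map_mul, map_mul, MulEquiv.apply_symm_apply] at h4
    have h5 : eQ ⟨q, hq⟩ * eQ ⟨q, hq⟩ = 1 := by
      rcases Cfsg.Agent.Helper49.quat_center hN _ h1 with h2 | h2
      · rw [h2, one_mul]
      · rw [h2, ← hzq]; exact hzq2
    have h6 : (⟨q, hq⟩ : ↥Q) * ⟨q, hq⟩ = 1 := by
      apply eQ.injective; rw [map_mul, h5, map_one]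
    exact congrArg Subtype.val h6
  · refine ⟨((eQ.symm (QuaternionGroup.xa 0) : ↥Q) : G), (eQ.symm (QuaternionGroup.xa 0)).2, ?_⟩
    have h1 : eQ.symm (QuaternionGroup.xa 0) * eQ.symm (QuaternionGroup.xa 0) = eQ.symm zq := by
      rw [← map_mul, QuaternionGroup.xa_mul_xa, hzq]
      congr 2
      ring
    exact congrArg Subtype.val h1

/-- **S3269**, relative to the `Z*`-theorem for `G`, with the quaternion factor replaced by the
facts of `qf_quat_facts`. -/
theorem qf_not_simple {G : Type*} [Group G] [Finite G]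
    (hZ : ∀ (P : Sylow 2 G) (u : G), orderOf u = 2 → u ∈ P →
      (∀ g : G, g * u * g⁻¹ ∈ P → g * u * g⁻¹ = u) →
      ∃ N : Subgroup G, N.Normal ∧ Odd (Nat.card N) ∧ ∀ g : G, (u * g * u⁻¹ * g⁻¹) ∈ N)
    (S : Sylow 2 G) (Q R : Subgroup G)
    (hQR : Cfsg.IsInternalDirectProduct Q R (S : Subgroup G))
    (z : G) (hzQ : z ∈ Q) (hzz : z * z = 1) (hz1 : z ≠ 1) (hzc : ∀ q ∈ Q, q * z = z * q)
    (hQinv : ∀ q ∈ Q, q * q = 1 → q = 1 ∨ q = z)
    (hQcen : ∀ q ∈ Q, (∀ q' ∈ Q, q' * q = q * q') → q * q = 1)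
    (u : G) (huQ : u ∈ Q) (huu : u * u = z)
    (hR : ∀ r ∈ R, orderOf r = 2 → ∀ s ∈ R, r * s = s * r) : ¬ IsSimpleGroup G := by
  intro hsimp
  haveI := hsimp
  haveI : Fact (Nat.Prime 2) := ⟨Nat.prime_two⟩
  obtain ⟨hQS, hRS, hcomm, hinf, hsup⟩ := hQR
  have htriv : ∀ c : G, c ∈ Q → c ∈ R → c = 1 := by
    intro c hcQ hcR
    have h1 : c ∈ Q ⊓ R := Subgroup.mem_inf.mpr ⟨hcQ, hcR⟩
    rw [hinf, Subgroup.mem_bot] at h1
    exact h1
  -- every element of `S` is a product
  have hD : ∀ s ∈ (S : Subgroup G), ∃ q ∈ Q, ∃ r ∈ R, s = q * r := by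
    have hle : Q ⊔ R ≤
        ({ carrier := {s | ∃ q ∈ Q, ∃ r ∈ R, s = q * r}
           mul_mem' := by
             rintro a b ⟨q₁, hq₁, r₁, hr₁, rfl⟩ ⟨q₂, hq₂, r₂, hr₂, rfl⟩
             refine ⟨q₁ * q₂, Q.mul_mem hq₁ hq₂, r₁ * r₂, R.mul_mem hr₁ hr₂, ?_⟩
             have h1 := hcomm q₂ hq₂ r₁ hr₁
             calc q₁ * r₁ * (q₂ * r₂) = q₁ * (r₁ * q₂) * r₂ := by group
               _ = q₁ * (q₂ * r₁) * r₂ := by rw [h1]
               _ = q₁ * q₂ * (r₁ * r₂) := by group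
           one_mem' := ⟨1, Q.one_mem, 1, R.one_mem, by simp⟩
           inv_mem' := by
             rintro a ⟨q, hq, r, hr, rfl⟩
             refine ⟨q⁻¹, Q.inv_mem hq, r⁻¹, R.inv_mem hr, ?_⟩
             have h1 := hcomm q⁻¹ (Q.inv_mem hq) r⁻¹ (R.inv_mem hr)
             rw [mul_inv_rev, h1] } : Subgroup G) :=
      sup_le (fun q hq => ⟨q, hq, 1, R.one_mem, by simp⟩)
        (fun r hr => ⟨1, Q.one_mem, r, hr, by simp⟩)
    intro s hs
    rw [← hsup] at hs
    exact hle hs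
  -- elements of square one are central in `S`
  have hC : ∀ s ∈ (S : Subgroup G), s * s = 1 → ∀ t ∈ (S : Subgroup G), t * s = s * t := by
    intro s hs hss t ht
    obtain ⟨q, hq, r, hr, rfl⟩ := hD s hs
    obtain ⟨q', hq', r', hr', rfl⟩ := hD t ht
    have hqr : q * r = r * q := hcomm q hq r hr
    have h1 : (q * q) * (r * r) = 1 := by
      calc (q * q) * (r * r) = q * (q * r) * r := by group
        _ = q * (r * q) * r := by rw [hqr]
        _ = (q * r) * (q * r) := by group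
        _ = 1 := hss
    have h2 : q * q = (r * r)⁻¹ := eq_inv_of_mul_eq_one_left h1
    have h3 : q * q = 1 :=
      htriv _ (Q.mul_mem hq hq) (by rw [h2]; exact R.inv_mem (R.mul_mem hr hr))
    have h4 : r * r = 1 := by rw [h3, one_mul] at h1; exact h1
    have hqc : ∀ q₂ ∈ Q, q₂ * q = q * q₂ := by
      intro q₂ hq₂
      rcases hQinv q hq h3 with h5 | h5
      · rw [h5, mul_one, one_mul]
      · rw [h5]; exact hzc q₂ hq₂
    have hrc : ∀ r₂ ∈ R, r₂ * r = r * r₂ := by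
      intro r₂ hr₂
      by_cases hr1 : r = 1
      · rw [hr1, mul_one, one_mul]
      · exact (hR r hr ((ti_orderOf_two_iff r).mpr ⟨h4, hr1⟩) r₂ hr₂).symm
    calc q' * r' * (q * r) = q' * (r' * q) * r := by group
      _ = q' * (q * r') * r := by rw [hcomm q hq r' hr']
      _ = (q' * q) * (r' * r) := by group
      _ = (q * q') * (r * r') := by rw [hqc q' hq', hrc r' hr']
      _ = q * (q' * r) * r' := by group
      _ = q * (r * q') * r' := by rw [hcomm q' hq' r hr]
      _ = q * r * (q' * r') := by group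
  have hzS : z ∈ (S : Subgroup G) := hQS hzQ
  -- nontrivial elements are not central in `G`
  have hncen : ∀ e : G, e ≠ 1 → ∃ g : G, g * e ≠ e * g := by
    intro e he1
    by_contra hcon
    have hcen : ∀ g : G, g * e = e * g := by
      intro g; by_contra h'; exact hcon ⟨g, h'⟩
    have heZ : e ∈ center G := Subgroup.mem_center_iff.mpr hcen
    have hZtop : center G = ⊤ := by
      rcases (inferInstance : (center G).Normal).eq_bot_or_eq_top with h1 | h1
      · rw [h1, Subgroup.mem_bot] at heZ; exact absurd heZ he1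
      · exact h1
    have huZ : u ∈ center G := hZtop ▸ Subgroup.mem_top u
    have h1 := hQcen u huQ (fun q' _ => Subgroup.mem_center_iff.mp huZ q')
    rw [huu] at h1
    exact hz1 h1
  have hNS : ∀ m ∈ normalizer ((S : Subgroup G) : Set G), ∀ s : G,
      s ∈ (S : Subgroup G) ↔ m * s * m⁻¹ ∈ (S : Subgroup G) :=
    fun m hm => Subgroup.mem_normalizer_iff.mp hm
  -- every involution of `S` is moved by the normalizer of `S`
  have h1' : ∀ e ∈ (S : Subgroup G), e * e = 1 → e ≠ 1 →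
      ∃ m ∈ normalizer ((S : Subgroup G) : Set G), m * e * m⁻¹ ≠ e := by
    intro e heS hee he1
    have heo : orderOf e = 2 := (ti_orderOf_two_iff e).mpr ⟨hee, he1⟩
    obtain ⟨g, hgS, hgne⟩ := ti_exists_conj_ne_of_simple hZ S e heo heS (hncen e he1)
    have hx : e ∈ centralizer ((S : Subgroup G) : Set G) := by
      rw [Subgroup.mem_centralizer_iff]
      intro t ht
      exact hC e heS hee t ht
    have hy : (g⁻¹)⁻¹ * e * g⁻¹ ∈ centralizer ((S : Subgroup G) : Set G) := by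
      rw [inv_inv, Subgroup.mem_centralizer_iff]
      intro t ht
      have h2 : (g * e * g⁻¹) * (g * e * g⁻¹) = 1 := by
        calc (g * e * g⁻¹) * (g * e * g⁻¹) = g * (e * e) * g⁻¹ := by group
          _ = 1 := by rw [hee]; group
      exact hC _ hgS h2 t ht
    obtain ⟨n, hn, hne⟩ := S.conj_eq_normalizer_conj_of_mem_centralizer e g⁻¹ hx hy
    refine ⟨n⁻¹, inv_mem hn, ?_⟩
    rw [inv_inv, ← hne, inv_inv]
    exact hgne
  have hQnorm : ∀ s ∈ (S : Subgroup G), ∀ q ∈ Q, s * q * s⁻¹ ∈ Q := by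
    intro s hs q hq
    obtain ⟨q₁, hq₁, r₁, hr₁, rfl⟩ := hD s hs
    have h1 : q₁ * r₁ * q * (q₁ * r₁)⁻¹ = q₁ * q * q₁⁻¹ := by
      have h2 := hcomm q hq r₁ hr₁
      calc q₁ * r₁ * q * (q₁ * r₁)⁻¹ = q₁ * (r₁ * q) * r₁⁻¹ * q₁⁻¹ := by group
        _ = q₁ * (q * r₁) * r₁⁻¹ * q₁⁻¹ := by rw [h2]
        _ = q₁ * q * q₁⁻¹ := by group
    rw [h1]
    exact Q.mul_mem (Q.mul_mem hq₁ hq) (Q.inv_mem hq₁)
  -- the conjugates of `z` under the normalizer, other than `z`, lie in `R`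
  have ha : ∀ m ∈ normalizer ((S : Subgroup G) : Set G), m * z * m⁻¹ ≠ z → m * z * m⁻¹ ∈ R := by
    intro m hm hne
    have hmS := hNS m hm
    have hmS' : ∀ s : G, s ∈ (S : Subgroup G) → m⁻¹ * s * m ∈ (S : Subgroup G) := by
      intro s hs
      rw [hmS]
      have h1 : m * (m⁻¹ * s * m) * m⁻¹ = s := by group
      rw [h1]; exact hs
    have hQQ' : ∀ q ∈ Q, ∀ q₂ ∈ Q, q * (m * q₂ * m⁻¹) = (m * q₂ * m⁻¹) * q := by
      intro q hq q₂ hq₂
      have hq₂S : m * q₂ * m⁻¹ ∈ (S : Subgroup G) := (hmS q₂).mp (hQS hq₂)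
      obtain ⟨c, hc⟩ : ∃ c : G, c = q * (m * q₂ * m⁻¹) * q⁻¹ * (m * q₂ * m⁻¹)⁻¹ := ⟨_, rfl⟩
      have hcQ : c ∈ Q := by
        have h1 := hQnorm _ hq₂S q⁻¹ (Q.inv_mem hq)
        have h2 : c = q * ((m * q₂ * m⁻¹) * q⁻¹ * (m * q₂ * m⁻¹)⁻¹) := by rw [hc]; group
        rw [h2]; exact Q.mul_mem hq h1
      have hcQ' : m⁻¹ * c * m ∈ Q := by
        have h1 : m⁻¹ * q * m ∈ (S : Subgroup G) := hmS' q (hQS hq)
        have h2 := hQnorm _ h1 q₂ hq₂
        have h3 : m⁻¹ * c * m = ((m⁻¹ * q * m) * q₂ * (m⁻¹ * q * m)⁻¹) * q₂⁻¹ := by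
          rw [hc]; group
        rw [h3]; exact Q.mul_mem h2 (Q.inv_mem hq₂)
      have hc1 : c = 1 := by
        by_contra hc1
        obtain ⟨n, hn⟩ : ∃ n : ℕ, c ^ (2 ^ n) = 1 := by
          obtain ⟨n, hn⟩ := S.2 ⟨c, hQS hcQ⟩
          exact ⟨n, by simpa using congrArg Subtype.val hn⟩
        obtain ⟨j, hj⟩ := ti_exists_pow_invol c ⟨n, hn⟩ hc1
        obtain ⟨hjj, hj1⟩ := (ti_orderOf_two_iff _).mp hj
        have h1 : c ^ j = z := by
          rcases hQinv _ (Q.pow_mem hcQ j) hjj with h | h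
          · exact absurd h hj1
          · exact h
        have h2 : (m⁻¹ * c * m) ^ j = m⁻¹ * c ^ j * m := by
          have h := conj_pow (a := m⁻¹) (b := c) (i := j)
          rwa [inv_inv] at h
        have h3 : m⁻¹ * c ^ j * m = z := by
          have h4 : (m⁻¹ * c ^ j * m) * (m⁻¹ * c ^ j * m) = 1 := by
            calc (m⁻¹ * c ^ j * m) * (m⁻¹ * c ^ j * m) = m⁻¹ * (c ^ j * c ^ j) * m := by group
              _ = 1 := by rw [hjj]; group
          rcases hQinv _ (by rw [← h2]; exact Q.pow_mem hcQ' j) h4 with h | h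
          · exfalso; apply hj1
            calc c ^ j = m * (m⁻¹ * c ^ j * m) * m⁻¹ := by group
              _ = 1 := by rw [h]; group
          · exact h
        apply hne
        calc m * z * m⁻¹ = m * (m⁻¹ * c ^ j * m) * m⁻¹ := by rw [h3]
          _ = c ^ j := by group
          _ = z := h1
      rw [hc] at hc1
      calc q * (m * q₂ * m⁻¹)
          = (q * (m * q₂ * m⁻¹) * q⁻¹ * (m * q₂ * m⁻¹)⁻¹) * ((m * q₂ * m⁻¹) * q) := by group
        _ = (m * q₂ * m⁻¹) * q := by rw [hc1, one_mul]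
    have hu'S : m * u * m⁻¹ ∈ (S : Subgroup G) := (hmS u).mp (hQS huQ)
    obtain ⟨q, hq, r, hr, hqr⟩ := hD _ hu'S
    have hqcen : ∀ q' ∈ Q, q' * q = q * q' := by
      intro q' hq'
      have h1 := hQQ' q' hq' u huQ
      rw [hqr] at h1
      have h2 : r * q' = q' * r := (hcomm q' hq' r hr).symm
      have h3 : q' * q * r = q * q' * r := by
        calc q' * q * r = q' * (q * r) := by group
          _ = q * r * q' := h1
          _ = q * (r * q') := by group
          _ = q * (q' * r) := by rw [h2]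
          _ = q * q' * r := by group
      exact mul_right_cancel h3
    have hqq : q * q = 1 := hQcen q hq hqcen
    have h4 : m * z * m⁻¹ = r * r := by
      calc m * z * m⁻¹ = (m * u * m⁻¹) * (m * u * m⁻¹) := by rw [← huu]; group
        _ = (q * r) * (q * r) := by rw [hqr]
        _ = q * (r * q) * r := by group
        _ = q * (q * r) * r := by rw [hcomm q hq r hr]
        _ = (q * q) * (r * r) := by group
        _ = r * r := by rw [hqq, one_mul]
    rw [h4]; exact R.mul_mem hr hr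
  -- the subgroup `E` of elements of `S` of square one
  obtain ⟨E, hE⟩ : ∃ E : Subgroup G, ∀ s : G, s ∈ E ↔ s ∈ (S : Subgroup G) ∧ s * s = 1 :=
    ⟨{ carrier := {s | s ∈ (S : Subgroup G) ∧ s * s = 1}
       mul_mem' := by
         rintro a b ⟨ha', haa⟩ ⟨hb', hbb⟩
         refine ⟨mul_mem ha' hb', ?_⟩
         have h1 := hC a ha' haa b hb'
         calc a * b * (a * b) = a * (b * a) * b := by group
           _ = a * (a * b) * b := by rw [h1]
           _ = (a * a) * (b * b) := by group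
           _ = 1 := by rw [haa, hbb, one_mul]
       one_mem' := ⟨one_mem _, one_mul 1⟩
       inv_mem' := by
         rintro a ⟨ha', haa⟩
         refine ⟨inv_mem ha', ?_⟩
         rw [← mul_inv_rev, haa, inv_one] }, fun s => Iff.rfl⟩
  letI : CommGroup ↥E :=
    { (inferInstance : Group ↥E) with
      mul_comm := fun a b => Subtype.ext
        (hC b.1 ((hE _).mp b.2).1 ((hE _).mp b.2).2 a.1 ((hE _).mp a.2).1) }
  classical
  letI : Fintype ↥E := Fintype.ofFinite _
  have hconjE : ∀ m ∈ normalizer ((S : Subgroup G) : Set G), ∀ e ∈ E, m * e * m⁻¹ ∈ E := by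
    intro m hm e he
    obtain ⟨heS, hee⟩ := (hE e).mp he
    rw [hE]
    refine ⟨(hNS m hm e).mp heS, ?_⟩
    calc (m * e * m⁻¹) * (m * e * m⁻¹) = m * (e * e) * m⁻¹ := by group
      _ = 1 := by rw [hee]; group
  let zE : ↥E := ⟨z, (hE z).mpr ⟨hzS, hzz⟩⟩
  let 𝒪 : Finset ↥E := Finset.univ.filter
    (fun e => ∃ m ∈ normalizer ((S : Subgroup G) : Set G), (e : G) = m * z * m⁻¹)
  have hzO : zE ∈ 𝒪 :=
    Finset.mem_filter.mpr ⟨Finset.mem_univ _, 1, one_mem _, by simp [zE]⟩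
  have hprodR : ((∏ e ∈ 𝒪.erase zE, e : ↥E) : G) ∈ R := by
    apply Finset.prod_induction (fun e : ↥E => e) (fun e : ↥E => (e : G) ∈ R)
    · intro a b ha' hb'; exact R.mul_mem ha' hb'
    · exact R.one_mem
    · intro e he
      obtain ⟨hne, hmem⟩ := Finset.mem_erase.mp he
      obtain ⟨m, hm, hem⟩ := (Finset.mem_filter.mp hmem).2
      rw [hem]
      apply ha m hm
      intro hcon
      apply hne
      apply Subtype.ext
      rw [hem, hcon]
  obtain ⟨e₀, he₀⟩ : ∃ e₀ : ↥E, e₀ = ∏ e ∈ 𝒪, e := ⟨_, rfl⟩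
  have he₀' : e₀ = zE * ∏ e ∈ 𝒪.erase zE, e := by
    rw [he₀]; exact (Finset.mul_prod_erase 𝒪 (fun e => e) hzO).symm
  have he₀1 : (e₀ : G) ≠ 1 := by
    intro h1
    have h2 : (e₀ : G) = z * ((∏ e ∈ 𝒪.erase zE, e : ↥E) : G) := by rw [he₀']; rfl
    rw [h1] at h2
    have h3 : z = (((∏ e ∈ 𝒪.erase zE, e : ↥E) : G))⁻¹ := eq_inv_of_mul_eq_one_left h2.symm
    apply hz1
    have h4 : z ∈ R := by rw [h3]; exact R.inv_mem hprodR
    exact htriv z hzQ h4
  have he₀fix : ∀ m ∈ normalizer ((S : Subgroup G) : Set G), m * (e₀ : G) * m⁻¹ = e₀ := by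
    intro m hm
    have hm' : m⁻¹ ∈ normalizer ((S : Subgroup G) : Set G) := inv_mem hm
    let cm : ↥E →* ↥E :=
      { toFun := fun e => ⟨m * (e : G) * m⁻¹, hconjE m hm e e.2⟩
        map_one' := Subtype.ext (by simp)
        map_mul' := fun a b => Subtype.ext (by
          show m * ((a : G) * (b : G)) * m⁻¹ = (m * (a : G) * m⁻¹) * (m * (b : G) * m⁻¹)
          group) }
    let cmE : ↥E ≃ ↥E :=
      { toFun := fun e => ⟨m * (e : G) * m⁻¹, hconjE m hm e e.2⟩
        invFun := fun e => ⟨m⁻¹ * (e : G) * m, by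
          have h := hconjE m⁻¹ hm' e e.2
          rwa [inv_inv] at h⟩
        left_inv := fun e => Subtype.ext (by
          show m⁻¹ * (m * (e : G) * m⁻¹) * m = e
          group)
        right_inv := fun e => Subtype.ext (by
          show m * (m⁻¹ * (e : G) * m) * m⁻¹ = e
          group) }
    have h1 : cm e₀ = ∏ e ∈ 𝒪, cm e := by rw [he₀]; exact map_prod cm _ _
    have h2 : ∏ e ∈ 𝒪, cm e = ∏ e ∈ 𝒪, e := by
      refine Finset.prod_equiv cmE ?_ (fun i _ => rfl)
      intro i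
      simp only [𝒪, Finset.mem_filter, Finset.mem_univ, true_and]
      constructor
      · rintro ⟨m', hm'', hi⟩
        refine ⟨m * m', mul_mem hm hm'', ?_⟩
        show m * (i : G) * m⁻¹ = m * m' * z * (m * m')⁻¹
        rw [hi]; group
      · rintro ⟨m', hm'', hi⟩
        refine ⟨m⁻¹ * m', mul_mem hm' hm'', ?_⟩
        have hi' : m * (i : G) * m⁻¹ = m' * z * m'⁻¹ := hi
        calc (i : G) = m⁻¹ * (m * (i : G) * m⁻¹) * m := by group
          _ = m⁻¹ * m' * z * (m⁻¹ * m')⁻¹ := by rw [hi']; group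
    have h3 : cm e₀ = e₀ := by rw [h1, h2, he₀]
    exact congrArg Subtype.val h3
  obtain ⟨m, hm, hne⟩ := h1' (e₀ : G) ((hE _).mp e₀.2).1 ((hE _).mp e₀.2).2 he₀1
  exact hne (he₀fix m hm)

end Cfsg.Agent.Helper54
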